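import Mathlib

/-! A group with trivial centre has no power-preserving action with all stabilisers maximal extending
conjugation. -/

namespace CfsgLib.Extremely

open MulAction

theorem sum_inv_sq (N : ℕ) (hN : 2 ≤ N) :
    ∑ n ∈ Finset.Icc 2 N, (1 : ℚ) / (n : ℚ) ^ 2 ≤ 3 / 4 - 1 / N := by
  induction N, hN using Nat.le_induction with
  | base => norm_num
  | succ N hN ih =>
    rw [Finset.sum_Icc_succ_top (by omega)]
    have h0 : (0 : ℚ) < N := by exact_mod_cast (by omega : 0 < N)
    have key : (1 : ℚ) / ((N + 1 : ℕ) : ℚ) ^ 2 ≤ 1 / N - 1 / ((N + 1 : ℕ) : ℚ) := by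
      push_cast
      rw [div_sub_div _ _ h0.ne' (by positivity), div_le_div_iff₀ (by positivity) (by positivity)]
      nlinarith
    linarith

theorem eq_sylow {M : Type*} [Group M] [Finite M] (p : ℕ) [Fact p.Prime] (P : Subgroup M)
    (S : Sylow p M) (hPS : P ≤ S)
    (h : ∀ g ∈ (S : Subgroup M), g ∈ Subgroup.normalizer (P : Set M) → g ∈ P) :
    P = (S : Subgroup M) := by
  by_contra hne
  haveI := S.2.isNilpotent
  have hlt : P.subgroupOf (S : Subgroup M) < ⊤ := by
    rw [lt_top_iff_ne_top]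
    exact fun e => hne (le_antisymm hPS (Subgroup.subgroupOf_eq_top.1 e))
  obtain ⟨g, hg, hgn⟩ :=
    SetLike.exists_of_lt (Group.normalizerCondition_of_isNilpotent (G := (S : Subgroup M)) _ hlt)
  refine hgn (h g g.2 (Subgroup.mem_normalizer_iff.2 fun n => ?_))
  constructor
  · intro hn
    exact (Subgroup.mem_normalizer_iff.1 hg ⟨n, hPS hn⟩).1 hn
  · intro hn
    have hnS : n ∈ (S : Subgroup M) := by
      have := (S : Subgroup M).mul_mem ((S : Subgroup M).mul_mem ((S : Subgroup M).inv_mem g.2) (hPS hn)) g.2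
      simpa [mul_assoc] using this
    exact (Subgroup.mem_normalizer_iff.1 hg ⟨n, hnS⟩).2 hn

theorem center_card_le {S : Type*} [Group S] [Finite S] (p : ℕ) [Fact p.Prime] (hS : IsPGroup p S)
    (hnc : ¬ IsMulCommutative S) : Nat.card (Subgroup.center S) * p ^ 2 ≤ Nat.card S := by
  obtain ⟨k, hk⟩ := hS.index (Subgroup.center S)
  have hk2 : 2 ≤ k := by
    by_contra hlt
    apply hnc
    have hcyc : IsCyclic (S ⧸ Subgroup.center S) := by
      have hc : Nat.card (S ⧸ Subgroup.center S) = p ^ k := hk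
      interval_cases k
      · haveI : Subsingleton (S ⧸ Subgroup.center S) :=
          (Nat.card_eq_one_iff_unique.1 (by rw [hc, pow_zero])).1
        exact isCyclic_of_subsingleton
      · exact isCyclic_of_prime_card (p := p) (by rw [hc, pow_one])
    exact ⟨⟨commutative_of_cyclic_center_quotient (QuotientGroup.mk' (Subgroup.center S))
      (by rw [QuotientGroup.ker_mk'])⟩⟩
  rw [← (Subgroup.center S).card_mul_index, hk]
  exact Nat.mul_le_mul_left _ (Nat.pow_le_pow_right (Fact.out : p.Prime).pos hk2)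

theorem no_power_action {M H : Type*} [Group M] [Finite M] [Nontrivial M] [Group H]
    [MulAction H M] (ι : M →* H) (hι : Function.Injective ι) (hnorm : ι.range.Normal)
    (hconj : ∀ m x : M, ι m • x = m * x * m⁻¹)
    (hpow : ∀ (h : H) (x : M) (j : ℕ), h • x ^ j = (h • x) ^ j)
    (hmin : ∀ L : Subgroup M, L.Normal → (L.map ι).Normal → L = ⊥ ∨ L = ⊤)
    (hcenter : Subgroup.center M = ⊥)
    (hmax : ∀ x : M, x ≠ 1 → IsCoatom (stabilizer H x)) : False := by
  classical
  let C : M → Subgroup M := fun x => Subgroup.centralizer ({x} : Set M)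
  have hC : ∀ x m : M, m ∈ C x ↔ ι m ∈ stabilizer H x := fun x m => by
    rw [mem_stabilizer_iff, hconj, mul_inv_eq_iff_eq_mul]
    exact Subgroup.mem_centralizer_singleton_iff
  have hself : ∀ x, x ∈ C x := fun x => Subgroup.mem_centralizer_singleton_iff.2 rfl
  have hmono : ∀ (x : M) (j : ℕ), x ^ j ≠ 1 → stabilizer H x = stabilizer H (x ^ j) := by
    intro x j hj
    have hx : x ≠ 1 := fun e => hj (by rw [e, one_pow])
    have hle : stabilizer H x ≤ stabilizer H (x ^ j) := fun h hh => by
      rw [mem_stabilizer_iff] at hh ⊢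
      rw [hpow, hh]
    exact (((hmax x hx).le_iff.1 hle).resolve_left (hmax _ hj).1).symm
  have hCeq : ∀ x y : M, stabilizer H x = stabilizer H y → C x = C y := fun x y e => by
    ext m; rw [hC, hC, e]
  have hcop : ∀ x y : M, x * y = y * x → x ≠ 1 → y ≠ 1 → Nat.Coprime (orderOf x) (orderOf y) →
      C x = C y := by
    intro x y hc hx hy hcp
    apply hCeq
    have h1 : ∀ a b : M, a * b = b * a → a ≠ 1 → Nat.Coprime (orderOf a) (orderOf b) →
        stabilizer H (a * b) = stabilizer H a := by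
      intro a b hab ha hcp
      have hne : a ^ orderOf b ≠ 1 := fun e => ha (orderOf_eq_one_iff.1
        (Nat.eq_one_of_dvd_coprimes hcp dvd_rfl (orderOf_dvd_of_pow_eq_one e)))
      have e : (a * b) ^ orderOf b = a ^ orderOf b := by
        rw [(show Commute a b from hab).mul_pow, pow_orderOf_eq_one, mul_one]
      rw [hmono (a * b) (orderOf b) (e ▸ hne), e, ← hmono a _ hne]
    rw [← h1 x y hc hx hcp, hc, h1 y x hc.symm hy hcp.symm]
  have hroot : ∀ x : M, x ≠ 1 → ∀ p : ℕ, p.Prime → p ∣ orderOf x →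
      ∃ j : ℕ, orderOf (x ^ j) = p ∧ C (x ^ j) = C x := by
    intro x hx p hp hd
    obtain ⟨k, hk⟩ := hd
    have hk0 : k ≠ 0 := fun e => by rw [e, mul_zero] at hk; exact (orderOf_pos x).ne' hk
    refine ⟨k, ?_, ?_⟩
    · rw [orderOf_pow' x hk0, hk, Nat.gcd_mul_left_left, Nat.mul_div_cancel _ (Nat.pos_of_ne_zero hk0)]
    · refine (hCeq _ _ (hmono x k fun e => ?_)).symm
      have h2 := Nat.le_of_dvd (Nat.pos_of_ne_zero hk0) (hk ▸ orderOf_dvd_of_pow_eq_one e)
      have h3 := hp.two_le
      nlinarith [Nat.pos_of_ne_zero hk0]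
  have hNQ : ∀ x : M, x ≠ 1 → ∀ g ∈ Subgroup.normalizer (C x : Set M), g ∈ C x := by
    intro x hx g hg
    have hle : stabilizer H x ≤ Subgroup.normalizer ((C x).map ι : Set H) := by
      intro h hh
      have key : ∀ h ∈ stabilizer H x, ∀ y ∈ (C x).map ι, h * y * h⁻¹ ∈ (C x).map ι := by
        rintro h hh _ ⟨m, hm, rfl⟩
        obtain ⟨m', hm'⟩ := hnorm.conj_mem (ι m) ⟨m, rfl⟩ h
        refine ⟨m', (hC x m').2 ?_, hm'⟩
        rw [hm']
        exact (stabilizer H x).mul_mem ((stabilizer H x).mul_mem hh ((hC x m).1 hm))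
          ((stabilizer H x).inv_mem hh)
      exact Subgroup.mem_normalizer_iff.2 fun y => ⟨key h hh y, fun hy => by
        simpa [mul_assoc] using key h⁻¹ (inv_mem hh) _ hy⟩
    rcases (hmax x hx).le_iff.1 hle with htop | heq
    · exfalso
      have hn : ((C x).map ι).Normal := Subgroup.normalizer_eq_top_iff.1 htop
      have hn' : (C x).Normal := by
        rw [← Subgroup.comap_map_eq_self_of_injective hι (C x)]; exact hn.comap ι
      rcases hmin _ hn' hn with h | h
      · exact hx (Subgroup.mem_bot.1 (h ▸ hself x))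
      · refine hx (Subgroup.mem_bot.1 (hcenter ▸ Subgroup.mem_center_iff.2 fun y => ?_))
        exact Subgroup.mem_centralizer_singleton_iff.1
          (show y ∈ C x by rw [h]; exact Subgroup.mem_top y)
    · rw [hC, ← heq]
      refine Subgroup.mem_normalizer_iff.2 fun y => ?_
      constructor
      · rintro ⟨m, hm, rfl⟩
        exact ⟨g * m * g⁻¹, (Subgroup.mem_normalizer_iff.1 hg m).1 hm, by simp⟩
      · rintro ⟨m, hm, e⟩
        refine ⟨g⁻¹ * m * g, ?_, ?_⟩
        · refine (Subgroup.mem_normalizer_iff.1 hg _).2 ?_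
          simpa [mul_assoc] using hm
        · rw [map_mul, map_mul, map_inv, e]; group
  -- no centraliser is abelian
  have hnab : ∀ (p : ℕ) [Fact p.Prime] (x : M), orderOf x = p →
      ¬ (∀ a ∈ C x, ∀ b ∈ C x, a * b = b * a) := by
    intro p _ x hxp hab
    have hx : x ≠ 1 := fun e => (Fact.out : p.Prime).ne_one (by rw [← hxp, e, orderOf_one])
    let P : Subgroup M :=
      { carrier := {u | u ∈ C x ∧ ∃ k : ℕ, u ^ p ^ k = 1}
        one_mem' := ⟨(C x).one_mem, 0, one_pow _⟩
        mul_mem' := by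
          rintro a b ⟨ha, i, hi⟩ ⟨hb, j, hj⟩
          refine ⟨(C x).mul_mem ha hb, i + j, ?_⟩
          rw [(show Commute a b from hab a ha b hb).mul_pow, pow_add, pow_mul, hi, one_pow, one_mul,
            mul_comm, pow_mul, hj, one_pow]
        inv_mem' := by
          rintro a ⟨ha, i, hi⟩
          exact ⟨(C x).inv_mem ha, i, by rw [inv_pow, hi, inv_one]⟩ }
    have hxP : x ∈ P := ⟨hself x, 1, by rw [pow_one, ← hxp, pow_orderOf_eq_one]⟩
    have hNP : ∀ g ∈ Subgroup.normalizer (P : Set M), g ∈ C x := by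
      intro g hg
      by_cases hQp : ∀ v ∈ C x, ∃ k : ℕ, v ^ p ^ k = 1
      · refine hNQ x hx g ?_
        have : P = C x := le_antisymm (fun u hu => hu.1) fun u hu => ⟨hu, hQp u hu⟩
        rwa [this] at hg
      · push_neg at hQp
        obtain ⟨v, hv, hvp⟩ := hQp
        obtain ⟨q, hq, hqd, hqp⟩ : ∃ q : ℕ, q.Prime ∧ q ∣ orderOf v ∧ q ≠ p := by
          by_contra hcon
          push_neg at hcon
          have := Nat.eq_prime_pow_of_unique_prime_dvd (orderOf_pos v).ne'
            (fun {d} hd hdd => hcon d hd hdd)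
          exact hvp _ (by rw [← this]; exact pow_orderOf_eq_one v)
        have hv1 : v ≠ 1 := fun e => by
          rw [e, orderOf_one] at hqd; exact hq.ne_one (Nat.dvd_one.1 hqd)
        obtain ⟨j, hj, -⟩ := hroot v hv1 q hq hqd
        have hw : v ^ j ≠ 1 := fun e => hq.ne_one (by rw [← hj, e, orderOf_one])
        have key : ∀ u ∈ C x, orderOf u = p → C u = C (v ^ j) := fun u hu hup =>
          hcop u _ (hab u hu _ ((C x).pow_mem hv j))
            (fun e => (Fact.out : p.Prime).ne_one (by rw [← hup, e, orderOf_one])) hw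
            (by rw [hup, hj]; exact (Nat.coprime_primes Fact.out hq).2 hqp.symm)
        have hu : g * x * g⁻¹ ∈ P := (Subgroup.mem_normalizer_iff.1 hg x).1 hxP
        have e : C (g * x * g⁻¹) = C x := by
          rw [key _ hu.1 (by rw [← hxp]; exact MulEquiv.orderOf_eq (MulAut.conj g) x),
            ← key x (hself x) hxp]
        refine hNQ x hx g (Subgroup.mem_normalizer_iff.2 fun y => ?_)
        simp only [C] at e ⊢
        conv_rhs => rw [← e]
        rw [Subgroup.mem_centralizer_singleton_iff, Subgroup.mem_centralizer_singleton_iff,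
          show g * y * g⁻¹ * (g * x * g⁻¹) = g * (y * x) * g⁻¹ by group,
          show g * x * g⁻¹ * (g * y * g⁻¹) = g * (x * y) * g⁻¹ by group, mul_left_inj, mul_right_inj]
    have hPp : IsPGroup p P := fun u => by
      obtain ⟨k, hk⟩ := u.2.2
      exact ⟨k, Subtype.ext hk⟩
    obtain ⟨S, hS⟩ := hPp.exists_le_sylow
    have hPS : P = (S : Subgroup M) := eq_sylow p P S hS fun g hgS hg => by
      obtain ⟨k, hk⟩ := S.2 ⟨g, hgS⟩
      exact ⟨hNP g hg, k, congrArg Subtype.val hk⟩
    have hNC : Subgroup.normalizer ((S : Subgroup M) : Set M) ≤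
        Subgroup.centralizer ((S : Subgroup M) : Set M) := by
      intro g hg
      rw [← hPS] at hg ⊢
      exact Subgroup.mem_centralizer_iff.2 fun u hu => hab u hu.1 g (hNP g hg)
    have hcompl := MonoidHom.ker_transferSylow_isComplement' S hNC
    set T := (MonoidHom.transferSylow S hNC).ker with hT
    have hTmem : ∀ m : M, m ∈ T ↔ ¬ p ∣ orderOf m := by
      intro m
      constructor
      · intro hm hd
        refine MonoidHom.not_dvd_card_ker_transferSylow S hNC (hd.trans ?_)
        exact Subgroup.orderOf_dvd_natCard _ hm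
      · intro hd
        rw [MonoidHom.mem_ker, ← orderOf_eq_one_iff]
        obtain ⟨k, hk⟩ := IsPGroup.iff_orderOf.1 S.2 (MonoidHom.transferSylow S hNC m)
        refine Nat.eq_one_of_dvd_coprimes ?_ (orderOf_map_dvd _ m) (hk.dvd)
        exact ((Nat.Prime.coprime_iff_not_dvd Fact.out).2 hd).symm.pow_right k
    have hTn : (T.map ι).Normal := by
      refine ⟨?_⟩
      rintro _ ⟨m, hm, rfl⟩ h
      obtain ⟨m', hm'⟩ := hnorm.conj_mem (ι m) ⟨m, rfl⟩ h
      refine ⟨m', (hTmem m').2 ?_, hm'⟩
      rw [← orderOf_injective ι hι m', hm', ← MulAut.conj_apply, MulEquiv.orderOf_eq,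
        orderOf_injective ι hι m]
      exact (hTmem m).1 hm
    rcases hmin T inferInstance hTn with h | h
    · rw [h, Subgroup.isComplement'_bot_left] at hcompl
      have hMp : IsPGroup p M := by
        have := S.2
        rw [hcompl] at this
        exact this.of_equiv Subgroup.topEquiv
      haveI := hMp.center_nontrivial
      exact (Subgroup.nontrivial_iff_ne_bot _).1 inferInstance hcenter
    · rw [h, Subgroup.isComplement'_top_left] at hcompl
      rw [← hPS] at hcompl
      exact hx (Subgroup.mem_bot.1 (hcompl ▸ hxP))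
  -- so each centraliser is a Sylow subgroup
  have hSyl : ∀ (p : ℕ) [Fact p.Prime] (x : M), orderOf x = p →
      ∃ S : Sylow p M, (S : Subgroup M) = C x ∧
        Subgroup.normalizer ((S : Subgroup M) : Set M) = (S : Subgroup M) ∧
        ¬ IsMulCommutative (S : Subgroup M) := by
    intro p _ x hxp
    have hp : p.Prime := Fact.out
    have hx : x ≠ 1 := fun e => hp.ne_one (by rw [← hxp, e, orderOf_one])
    have hQp : IsPGroup p (C x) := by
      intro v
      by_contra hv
      push_neg at hv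
      have hv1 : (v : M) ≠ 1 := fun e => hv 0 (Subtype.ext (by simp [e]))
      obtain ⟨q, hq, hqd, hqp⟩ : ∃ q : ℕ, q.Prime ∧ q ∣ orderOf (v : M) ∧ q ≠ p := by
        by_contra hcon
        push_neg at hcon
        have := Nat.eq_prime_pow_of_unique_prime_dvd (orderOf_pos (v : M)).ne'
          (fun {d} hd hdd => hcon d hd hdd)
        exact hv _ (Subtype.ext (by rw [Subgroup.coe_pow, ← this, pow_orderOf_eq_one, Subgroup.coe_one]))
      obtain ⟨j, hj, hCj⟩ := hroot _ hv1 q hq hqd
      have hwne : (v : M) ^ j ≠ 1 := fun e => hq.ne_one (by rw [← hj, e, orderOf_one])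
      have hwx : C ((v : M) ^ j) = C x := by
        refine hcop _ x ?_ hwne hx (by rw [hj, hxp]; exact (Nat.coprime_primes hq hp).2 hqp)
        exact Subgroup.mem_centralizer_singleton_iff.1 ((C x).pow_mem v.2 j)
      refine hnab p x hxp fun a ha b hb => ?_
      rcases eq_or_ne a 1 with rfl | ha1
      · rw [one_mul, mul_one]
      suffices hCa : C a = C x by
        rw [← hCa] at hb
        exact (Subgroup.mem_centralizer_singleton_iff.1 hb).symm
      by_cases hp' : p ∣ orderOf a
      · obtain ⟨i, hi, hCi⟩ := hroot a ha1 p hp hp'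
        rw [← hCi, ← hwx]
        refine hcop _ _ ?_ (fun e => hp.ne_one (by rw [← hi, e, orderOf_one])) hwne
          (by rw [hi, hj]; exact (Nat.coprime_primes hp hq).2 hqp.symm)
        have hm : a ^ i ∈ C ((v : M) ^ j) := by rw [hwx]; exact (C x).pow_mem ha i
        exact Subgroup.mem_centralizer_singleton_iff.1 hm
      · refine hcop a x (Subgroup.mem_centralizer_singleton_iff.1 ha) ha1 hx ?_
        rw [hxp]
        exact ((hp.coprime_iff_not_dvd).2 hp').symm
    obtain ⟨S, hS⟩ := hQp.exists_le_sylow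
    have e : C x = (S : Subgroup M) := eq_sylow p _ S hS fun g _ hg => hNQ x hx g hg
    refine ⟨S, e.symm, ?_, ?_⟩
    · rw [← e]
      exact le_antisymm (fun g hg => hNQ x hx g hg) Subgroup.le_normalizer
    · intro hcm
      refine hnab p x hxp fun a ha b hb => ?_
      rw [e] at ha hb
      exact congrArg Subtype.val (hcm.is_comm.comm ⟨a, ha⟩ ⟨b, hb⟩)
  -- count
  have hexS : ∀ x : {x : M // x ≠ 1}, ∃ (p : (Nat.card M).primeFactors) (S : Sylow (p : ℕ) M),
      (x : M) ∈ (S : Subgroup M) ⊓ Subgroup.centralizer ((S : Subgroup M) : Set M) := by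
    rintro ⟨x, hx⟩
    have h1 : orderOf x ≠ 1 := mt orderOf_eq_one_iff.1 hx
    have hp : (orderOf x).minFac.Prime := Nat.minFac_prime h1
    haveI : Fact (orderOf x).minFac.Prime := ⟨hp⟩
    obtain ⟨j, hj, hCj⟩ := hroot x hx _ hp (Nat.minFac_dvd _)
    obtain ⟨S, hS, -, -⟩ := hSyl _ _ hj
    refine ⟨⟨(orderOf x).minFac, Nat.mem_primeFactors.2
      ⟨hp, (Nat.minFac_dvd _).trans (orderOf_dvd_natCard x), Nat.card_pos.ne'⟩⟩, S, ?_⟩
    rw [hS, hCj]
    exact ⟨hself x, Subgroup.mem_centralizer_iff.2 fun y hy =>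
      Subgroup.mem_centralizer_singleton_iff.1 hy⟩
  choose fp fS hfS using hexS
  let Z : (p : (Nat.card M).primeFactors) → Sylow (p : ℕ) M → Subgroup M :=
    fun p S => (S : Subgroup M) ⊓ Subgroup.centralizer ((S : Subgroup M) : Set M)
  let f : {x : M // x ≠ 1} → Σ (p : (Nat.card M).primeFactors) (S : Sylow (p : ℕ) M),
      {z : Z p S // (z : M) ≠ 1} := fun x => ⟨fp x, fS x, ⟨(x : M), hfS x⟩, x.2⟩
  have hf : Function.Injective f := fun a b h =>
    Subtype.ext (congrArg (fun z : Σ (p : (Nat.card M).primeFactors) (S : Sylow (p : ℕ) M),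
      {z : Z p S // (z : M) ≠ 1} => (z.2.2.1 : M)) h : _)
  have hbound : ∀ p : (Nat.card M).primeFactors,
      ((Nat.card (Σ S : Sylow (p : ℕ) M, {z : Z p S // (z : M) ≠ 1}) : ℕ) : ℚ) ≤
        (Nat.card M : ℚ) * (1 / ((p : ℕ) : ℚ) ^ 2) := by
    intro p
    have hp : (p : ℕ).Prime := Nat.prime_of_mem_primeFactors p.2
    haveI : Fact (p : ℕ).Prime := ⟨hp⟩
    obtain ⟨x, hx⟩ := exists_prime_orderOf_dvd_card' (G := M) (p : ℕ) (Nat.dvd_of_mem_primeFactors p.2)
    obtain ⟨S₀, -, hN₀, hnc₀⟩ := hSyl _ x hx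
    have hZ : ∀ S : Sylow (p : ℕ) M, Nat.card {z : Z p S // (z : M) ≠ 1} * (p : ℕ) ^ 2 ≤
        Nat.card (S₀ : Subgroup M) := by
      intro S
      rw [← Nat.card_congr (Sylow.equiv S S₀).toEquiv]
      refine le_trans (Nat.mul_le_mul_right _ ?_) (center_card_le (p : ℕ) S.2 fun hc => hnc₀ ?_)
      · refine Nat.card_le_card_of_injective
          (fun z => (⟨⟨(z.1 : M), z.1.2.1⟩, Subgroup.mem_center_iff.2 fun y => Subtype.ext
            (Subgroup.mem_centralizer_iff.1 z.1.2.2 y y.2)⟩ : Subgroup.center (S : Subgroup M))) ?_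
        intro a b h
        exact Subtype.ext (Subtype.ext (congrArg
          (fun w : Subgroup.center (S : Subgroup M) => (((w : (S : Subgroup M)) : M))) h : _))
      · exact ⟨⟨fun a b => (Sylow.equiv S₀ S).injective (by
          rw [map_mul, map_mul]; exact hc.is_comm.comm _ _)⟩⟩
    have hsum : Nat.card (Σ S : Sylow (p : ℕ) M, {z : Z p S // (z : M) ≠ 1}) * (p : ℕ) ^ 2 ≤
        Nat.card M := by
      have := Fintype.ofFinite (Sylow (p : ℕ) M)
      rw [Nat.card_sigma, Finset.sum_mul]
      refine le_trans (Finset.sum_le_sum fun S _ => hZ S) ?_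
      rw [Finset.sum_const, Finset.card_univ, smul_eq_mul, ← Nat.card_eq_fintype_card,
        S₀.card_eq_index_normalizer,
        show Subgroup.normalizer (S₀ : Set M) = (S₀ : Subgroup M) from hN₀, mul_comm]
      exact (Subgroup.card_mul_index _).le
    rw [mul_one_div, le_div_iff₀ (by have := hp.pos; positivity)]
    exact_mod_cast hsum
  have h1 := Nat.card_le_card_of_injective f hf
  rw [Nat.card_sigma] at h1
  have h2 : Nat.card {x : M // x ≠ 1} + 1 = Nat.card M := by
    have := Fintype.ofFinite M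
    rw [Nat.card_eq_fintype_card, Nat.card_eq_fintype_card, Fintype.card_subtype_compl,
      Fintype.card_subtype_eq, Nat.sub_add_cancel Fintype.card_pos]
  have hM5 : 5 ≤ Nat.card M := by
    by_contra hlt
    have hle : Nat.card M ≤ 4 := by omega
    have h1' : 1 < Nat.card M := Finite.one_lt_card
    obtain ⟨q, hq, k, hk⟩ : ∃ q, q.Prime ∧ ∃ k, Nat.card M = q ^ k := by
      interval_cases hc : Nat.card M
      · exact ⟨2, Nat.prime_two, 1, rfl⟩
      · exact ⟨3, Nat.prime_three, 1, rfl⟩
      · exact ⟨2, Nat.prime_two, 2, rfl⟩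
    haveI : Fact q.Prime := ⟨hq⟩
    haveI := (IsPGroup.of_card hk).center_nontrivial
    exact (Subgroup.nontrivial_iff_ne_bot _).1 inferInstance hcenter
  have h3 : ((Nat.card M : ℚ) - 1) ≤ (Nat.card M : ℚ) * (3 / 4) := by
    have e : ((Nat.card {x : M // x ≠ 1} : ℕ) : ℚ) = (Nat.card M : ℚ) - 1 := by
      rw [← h2]; push_cast; ring
    rw [← e]
    refine le_trans (Nat.cast_le.2 h1) ?_
    push_cast
    refine le_trans (Finset.sum_le_sum fun p _ => hbound p) ?_
    rw [← Finset.mul_sum]
    refine mul_le_mul_of_nonneg_left ?_ (Nat.cast_nonneg _)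
    rw [Finset.sum_coe_sort (Nat.card M).primeFactors (fun n : ℕ => (1 : ℚ) / (n : ℚ) ^ 2)]
    refine le_trans (Finset.sum_le_sum_of_subset_of_nonneg (t := Finset.Icc 2 (Nat.card M)) ?_
      (fun _ _ _ => by positivity)) ?_
    · intro q hq
      rw [Finset.mem_Icc]
      exact ⟨(Nat.prime_of_mem_primeFactors hq).two_le,
        Nat.le_of_dvd Nat.card_pos (Nat.dvd_of_mem_primeFactors hq)⟩
    · refine le_trans (sum_inv_sq _ (by omega)) ?_
      rw [sub_le_self_iff]; positivity
  have : (5 : ℚ) ≤ Nat.card M := by exact_mod_cast hM5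
  linarith

end CfsgLib.Extremely
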