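import Cfsg.Agent.Extremely.Basic
import Cfsg.Agent.Extremely.Core

/-! Extremely primitive groups are affine or almost simple. -/

namespace CfsgLib.Extremely

open MulAction

variable {G : Type*} [Group G] [Finite G] {Ω : Type*} [Finite Ω] [MulAction G Ω]

theorem false_of_two_regular (hep : ∀ α ω : Ω, IsPreprimitive (stabilizer G α) (orbit (stabilizer G α) ω))
    (α : Ω) (M L : Subgroup G) [IsPretransitive M Ω] [IsPretransitive L Ω] [Nontrivial M]
    (hcomm : ∀ m ∈ M, ∀ l ∈ L, m * l = l * m)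
    (hM : ∀ m ∈ M, m • α = α → m = 1) (hL : ∀ l ∈ L, l • α = α → l = 1)
    (hinv : ∀ h ∈ stabilizer G α,
      ((∀ m ∈ M, h * m * h⁻¹ ∈ M) ∧ (∀ l ∈ L, h * l * h⁻¹ ∈ L)) ∨
      ((∀ m ∈ M, h * m * h⁻¹ ∈ L) ∧ (∀ l ∈ L, h * l * h⁻¹ ∈ M)))
    (hcenter : Subgroup.center M = ⊥)
    (hmin : ∀ L₀ : Subgroup M, L₀.Normal →
      (∀ h ∈ stabilizer G α, (∀ m ∈ M, h * m * h⁻¹ ∈ M) → ∀ m ∈ L₀, ∀ hm : h * (m : G) * h⁻¹ ∈ M,
        (⟨_, hm⟩ : M) ∈ L₀) → L₀ = ⊥ ∨ L₀ = ⊤) : False := by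
  classical
  have hML : ∀ g : G, g ∈ M → g ∈ L → g = 1 := by
    intro g h1 h2
    have : (⟨g, h1⟩ : M) ∈ Subgroup.center M := Subgroup.mem_center_iff.2 fun m =>
      Subtype.ext (hcomm m m.2 g h2)
    rw [hcenter, Subgroup.mem_bot] at this
    exact congrArg Subtype.val this
  have huniqM : ∀ a b : M, (a : G) • α = (b : G) • α → a = b := fun a b h => by
    refine Subtype.ext (inv_mul_eq_one.1 (hM _ (M.mul_mem (M.inv_mem b.2) a.2) ?_)).symm
    rw [mul_smul, h, inv_smul_smul]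
  let e : M ≃ Ω := Equiv.ofBijective (fun m : M => (m : G) • α)
    ⟨huniqM, fun x => exists_smul_eq M α x⟩
  letI act : MulAction (stabilizer G α) M :=
    { smul := fun h x => e.symm ((h : G) • e x)
      one_smul := fun x => show e.symm ((1 : G) • e x) = x by rw [one_smul, e.symm_apply_apply]
      mul_smul := fun h k x =>
        show e.symm (((h : G) * k) • e x) = e.symm ((h : G) • e (e.symm ((k : G) • e x))) by
          rw [e.apply_symm_apply, mul_smul] }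
  have hsmul : ∀ (h : stabilizer G α) (x y : M), (y : G) • α = (h : G) • (x : G) • α → h • x = y := by
    intro h x y hy
    show e.symm ((h : G) • e x) = y
    rw [e.symm_apply_eq]
    exact hy.symm
  have hsmul' : ∀ (h : stabilizer G α) (x : M), ((h • x : M) : G) • α = (h : G) • (x : G) • α :=
    fun h x => e.apply_symm_apply ((h : G) • e x)
  -- the diagonal embedding
  have hl : ∀ m : M, ∃ l ∈ L, ((m : G) * l) • α = α := fun m => by
    obtain ⟨l, hl⟩ := exists_smul_eq L α ((m : G)⁻¹ • α)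
    exact ⟨l, l.2, by rw [mul_smul, show (l : G) • α = (m : G)⁻¹ • α from hl, smul_inv_smul]⟩
  choose lf hlfL hlf using hl
  have hluniq : ∀ (m : M) (l : G), l ∈ L → ((m : G) * l) • α = α → l = lf m := fun m l hl h => by
    refine (inv_mul_eq_one.1 (hL _ (L.mul_mem (L.inv_mem (hlfL m)) hl) ?_)).symm
    have h2 := hlf m
    rw [mul_smul] at h h2 ⊢
    have : l • α = lf m • α := smul_left_cancel (m : G) (h.trans h2.symm)
    rw [this, inv_smul_smul]
  let ι : M →* stabilizer G α := MonoidHom.mk' (fun m => ⟨(m : G) * lf m, hlf m⟩) fun a b => by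
    refine Subtype.ext ?_
    have h1 : lf a * lf b = lf (a * b) := hluniq (a * b) _ (L.mul_mem (hlfL a) (hlfL b)) (by
      rw [Subgroup.coe_mul, show (a : G) * b * (lf a * lf b) = (a : G) * lf a * ((b : G) * lf b) by
        rw [mul_assoc, ← mul_assoc (b : G), hcomm b b.2 _ (hlfL a)]; group, mul_smul, hlf b, hlf a])
    show ((a * b : M) : G) * lf (a * b) = (a : G) * lf a * ((b : G) * lf b)
    rw [← h1, Subgroup.coe_mul, mul_assoc, ← mul_assoc (b : G), hcomm b b.2 _ (hlfL a)]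
    group
  have hι : Function.Injective ι := by
    rw [injective_iff_map_eq_one]
    intro m hm
    have h : (m : G) * lf m = 1 := congrArg Subtype.val hm
    exact Subtype.ext (hML m m.2 (by rw [eq_inv_of_mul_eq_one_left h]; exact L.inv_mem (hlfL m)))
  have hdec : ∀ (m : M) (l : G), l ∈ L → ∀ hh : ((m : G) * l) • α = α,
      (⟨(m : G) * l, hh⟩ : stabilizer G α) = ι m := fun m l hl hh =>
    Subtype.ext (show (m : G) * l = (m : G) * lf m by rw [hluniq m l hl hh])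
  have hcases : ∀ (h : stabilizer G α) (m : M), ∃ m' : M, h * ι m * h⁻¹ = ι m' ∧
      ((∀ y ∈ M, (h : G) * y * (h : G)⁻¹ ∈ M) → (m' : G) = (h : G) * m * (h : G)⁻¹) := by
    intro h m
    have e1 : ((h * ι m * h⁻¹ : stabilizer G α) : G) =
        ((h : G) * m * (h : G)⁻¹) * ((h : G) * lf m * (h : G)⁻¹) := by
      show (h : G) * ((m : G) * lf m) * (h : G)⁻¹ = _
      group
    rcases hinv h h.2 with ⟨h1, h2⟩ | ⟨h1, h2⟩
    · refine ⟨⟨_, h1 m m.2⟩, ?_, fun _ => rfl⟩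
      have hh : (((h : G) * m * (h : G)⁻¹) * ((h : G) * lf m * (h : G)⁻¹)) • α = α := by
        rw [← e1]; exact (h * ι m * h⁻¹).2
      exact (Subtype.ext e1).trans (hdec ⟨_, h1 m m.2⟩ _ (h2 _ (hlfL m)) hh)
    · refine ⟨⟨_, h2 _ (hlfL m)⟩, ?_, fun h3 => ?_⟩
      · have hswap : ((h : G) * m * (h : G)⁻¹) * ((h : G) * lf m * (h : G)⁻¹) =
            ((h : G) * lf m * (h : G)⁻¹) * ((h : G) * m * (h : G)⁻¹) :=
          (hcomm _ (h2 _ (hlfL m)) _ (h1 m m.2)).symm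
        have hh : (((h : G) * lf m * (h : G)⁻¹) * ((h : G) * m * (h : G)⁻¹)) • α = α := by
          rw [← hswap, ← e1]; exact (h * ι m * h⁻¹).2
        exact (Subtype.ext (e1.trans hswap)).trans (hdec ⟨_, h2 _ (hlfL m)⟩ _ (h1 m m.2) hh)
      · -- no element of the stabiliser does both
        exfalso
        obtain ⟨y, hy⟩ := exists_ne (1 : M)
        exact hy (Subtype.ext (conj_eq_one_iff.1 (hML _ (h3 y y.2) (h1 y y.2))))
  have hnorm : ι.range.Normal := by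
    refine ⟨?_⟩
    rintro _ ⟨m, rfl⟩ h
    obtain ⟨m', hm', -⟩ := hcases h m
    exact ⟨m', hm'.symm⟩
  have hconj : ∀ m x : M, ι m • x = m * x * m⁻¹ := by
    intro m x
    refine hsmul _ _ _ ?_
    show ((m : G) * (x : G) * (m : G)⁻¹) • α = ((m : G) * lf m) • (x : G) • α
    have h2 : lf m • α = (m : G)⁻¹ • α := by
      have := hlf m
      rw [mul_smul] at this
      exact eq_inv_smul_iff.2 this
    rw [← mul_smul ((m : G) * lf m), show (m : G) * lf m * x = m * x * lf m by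
      rw [mul_assoc, ← hcomm x x.2 _ (hlfL m), ← mul_assoc]]
    simp only [mul_smul, h2]
  have hpow : ∀ (h : stabilizer G α) (x : M) (j : ℕ), h • x ^ j = (h • x) ^ j := by
    intro h x j
    set y := h • x with hy
    have hz : (y : G) • α = ((h : G) * x * (h : G)⁻¹) • α := by
      rw [hy, hsmul', mul_smul, mul_smul, inv_smul_eq_iff.2 (mem_stabilizer_iff.1 h.2).symm]
    refine hsmul h (x ^ j) (y ^ j) ?_
    have key : ((y : G) ^ j) • α = ((h : G) * x * (h : G)⁻¹) ^ j • α := by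
      rcases hinv h h.2 with ⟨h1, -⟩ | ⟨h1, -⟩
      · rw [huniqM y ⟨_, h1 x x.2⟩ hz]
      · have hc : Commute ((y : G)⁻¹) ((h : G) * x * (h : G)⁻¹) :=
          hcomm _ (M.inv_mem y.2) _ (h1 x x.2)
        have hfix : ∀ i : ℕ, ((y : G)⁻¹ * ((h : G) * x * (h : G)⁻¹)) ^ i • α = α := by
          intro i
          induction i with
          | zero => simp
          | succ i ih => rw [pow_succ, mul_smul, mul_smul, ← hz, inv_smul_smul, ih]
        have := hfix j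
        rw [hc.mul_pow, mul_smul, inv_pow, inv_smul_eq_iff] at this
        exact this.symm
    rw [Subgroup.coe_pow, key, conj_pow, ← Subgroup.coe_pow, mul_smul, mul_smul,
      inv_smul_eq_iff.2 (mem_stabilizer_iff.1 h.2).symm]
  refine no_power_action ι hι hnorm hconj hpow ?_ hcenter ?_
  · intro L₀ hn hn'
    refine hmin L₀ hn fun h hh hpres m hm hm' => ?_
    obtain ⟨m', hm'', heq⟩ := hcases ⟨h, hh⟩ m
    obtain ⟨m₁, hm₁, e1⟩ := hn'.conj_mem (ι m) ⟨m, hm, rfl⟩ ⟨h, hh⟩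
    rw [hm''] at e1
    have : (⟨_, hm'⟩ : M) = m₁ := (hι e1).symm ▸ (Subtype.ext (heq hpres).symm)
    rw [this]; exact hm₁
  · intro x hx
    haveI := hep α ((x : G) • α)
    have hstab : stabilizer (stabilizer G α) x = stabilizer (stabilizer G α)
        (⟨(x : G) • α, mem_orbit_self _⟩ : orbit (stabilizer G α) ((x : G) • α)) := by
      ext h
      rw [mem_stabilizer_iff, mem_stabilizer_iff]
      constructor
      · intro h1
        refine Subtype.ext ?_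
        show (h : G) • (x : G) • α = (x : G) • α
        rw [← hsmul', h1]
      · intro h1
        exact hsmul h x x (congrArg Subtype.val h1).symm
    haveI : Nontrivial (orbit (stabilizer G α) ((x : G) • α)) := by
      by_contra hnt
      rw [not_nontrivial_iff_subsingleton] at hnt
      refine hx (Subgroup.mem_bot.1 (hcenter ▸ Subgroup.mem_center_iff.2 fun m => ?_))
      have h1 : ι m • (x : G) • α = (x : G) • α := congrArg Subtype.val (Subsingleton.elim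
        (⟨ι m • (x : G) • α, mem_orbit _ _⟩ : orbit (stabilizer G α) ((x : G) • α))
        ⟨(x : G) • α, mem_orbit_self _⟩)
      have h2 : ι m • x = x := hsmul _ x x h1.symm
      rw [hconj, mul_inv_eq_iff_eq_mul] at h2
      exact h2
    rw [hstab]
    exact IsPreprimitive.isCoatom_stabilizer_of_isPreprimitive _ _

variable [FaithfulSMul G Ω]

theorem socle (hΩ : Nontrivial Ω) (hprim : IsPreprimitive G Ω)
    (hep : ∀ α ω : Ω, IsPreprimitive (stabilizer G α) (orbit (stabilizer G α) ω)) :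
    (∃ N : Subgroup G, N.Normal ∧ N ≠ ⊥ ∧ IsMulCommutative N ∧ ∀ ω : Ω, stabilizer N ω = ⊥) ∨
    (∃ T : Subgroup G, T.Normal ∧ IsSimpleGroup T ∧ ¬ IsMulCommutative T ∧
      Subgroup.centralizer (T : Set G) = ⊥) := by
  classical
  haveI : IsPretransitive G Ω := hprim.toIsPretransitive
  have hnorm : ∀ N : Subgroup G, N.Normal → N ≠ ⊥ → IsPretransitive N Ω := by
    intro N hN hne
    haveI := hN
    refine IsQuasiPreprimitive.isPretransitive_of_normal (G := G) fun hfix => hne ?_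
    rw [Subgroup.eq_bot_iff_forall]
    intro n hn
    refine FaithfulSMul.eq_of_smul_eq_smul (α := Ω) fun x => ?_
    rw [one_smul]
    exact (hfix ▸ Set.mem_univ x : x ∈ fixedPoints N Ω) ⟨n, hn⟩
  obtain ⟨α, β₀, hαβ⟩ := exists_pair_ne Ω
  have hGne : (⊤ : Subgroup G) ≠ ⊥ := fun h => by
    obtain ⟨g, hg⟩ := exists_smul_eq G α β₀
    have h1 := Subgroup.mem_top g
    rw [h, Subgroup.mem_bot] at h1
    exact hαβ (by rw [← hg, h1, one_smul])
  obtain ⟨N, ⟨hNn, hNne⟩, hNmin⟩ :=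
    (Set.toFinite {N : Subgroup G | N.Normal ∧ N ≠ ⊥}).exists_minimal ⟨⊤, inferInstance, hGne⟩
  haveI := hNn
  haveI hNt := hnorm N hNn hNne
  have hmin : ∀ K : Subgroup G, K.Normal → K ≤ N → K ≠ ⊥ → K = N := fun K h1 h2 h3 =>
    le_antisymm h2 (hNmin ⟨h1, h3⟩ h2)
  by_cases hab : IsMulCommutative N
  · left
    refine ⟨N, hNn, hNne, hab, fun ω => ?_⟩
    rw [Subgroup.eq_bot_iff_forall]
    intro n hn
    refine Subtype.ext (FaithfulSMul.eq_of_smul_eq_smul (α := Ω) fun x => ?_)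
    obtain ⟨m, rfl⟩ := exists_smul_eq N ω x
    rw [Subgroup.coe_one, one_smul]
    show n • m • ω = m • ω
    rw [← mul_smul, hab.is_comm.comm n m, mul_smul, mem_stabilizer_iff.1 hn]
  set C := Subgroup.centralizer (N : Set G) with hC
  have hCN : N ⊓ C = ⊥ := by
    by_contra h
    refine hab ⟨⟨fun a b => Subtype.ext ?_⟩⟩
    have := hmin _ inferInstance inf_le_left h
    have hb : (b : G) ∈ C := (inf_eq_left.1 this) b.2
    exact Subgroup.mem_centralizer_iff.1 hb a a.2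
  have hZN : Subgroup.center N = ⊥ := by
    rw [Subgroup.eq_bot_iff_forall]
    intro z hz
    have : (z : G) ∈ N ⊓ C := ⟨z.2, Subgroup.mem_centralizer_iff.2 fun n hn =>
      congrArg Subtype.val (Subgroup.mem_center_iff.1 hz ⟨n, hn⟩)⟩
    rw [hCN, Subgroup.mem_bot] at this
    exact Subtype.ext this
  haveI : Nontrivial N := (Subgroup.nontrivial_iff_ne_bot _).2 hNne
  set H := stabilizer G α with hH
  have hGNH : ∀ g : G, ∃ n ∈ N, ∃ h ∈ H, g = n * h := by
    intro g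
    obtain ⟨n, hn⟩ := exists_smul_eq N α (g • α)
    refine ⟨n, n.2, (n : G)⁻¹ * g, ?_, by group⟩
    rw [hH, mem_stabilizer_iff, mul_smul, ← show (n : G) • α = g • α from hn, inv_smul_smul]
  have hsemi : ∀ A B : Subgroup G, IsPretransitive A Ω → (∀ a ∈ A, ∀ b ∈ B, a * b = b * a) →
      ∀ x ∈ B, x • α = α → x = 1 := by
    intro A B hA hcomm x hx hω
    refine FaithfulSMul.eq_of_smul_eq_smul (α := Ω) fun y => ?_
    obtain ⟨a, rfl⟩ := hA.exists_smul_eq α y
    rw [one_smul]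
    show x • (a : G) • α = (a : G) • α
    rw [← mul_smul, ← hcomm a a.2 x hx, mul_smul, hω]
  by_cases hCne : C ≠ ⊥
  · exfalso
    haveI := hnorm C inferInstance hCne
    have hcomm : ∀ m ∈ N, ∀ l ∈ C, m * l = l * m := fun m hm l hl =>
      Subgroup.mem_centralizer_iff.1 hl m hm
    refine false_of_two_regular hep α N C hcomm
      (hsemi C N inferInstance fun a ha b hb => (hcomm b hb a ha).symm) (hsemi N C inferInstance hcomm)
      (fun h _ => Or.inl ⟨fun m hm => hNn.conj_mem m hm h,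
        fun l hl => Subgroup.Normal.conj_mem inferInstance l hl h⟩) hZN ?_
    intro L₀ hL₀ hinv
    have hn : (L₀.map N.subtype).Normal := by
      refine ⟨?_⟩
      rintro _ ⟨m, hm, rfl⟩ g
      obtain ⟨n, hn, h, hh, rfl⟩ := hGNH g
      refine ⟨⟨n, hn⟩ * ⟨_, hNn.conj_mem m m.2 h⟩ * ⟨n, hn⟩⁻¹,
        hL₀.conj_mem _ (hinv h hh (fun y hy => hNn.conj_mem y hy h) m hm _) _, ?_⟩
      show n * (h * (m : G) * h⁻¹) * n⁻¹ = n * h * (m : G) * (n * h)⁻¹
      group
    by_cases hb : L₀ = ⊥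
    · exact Or.inl hb
    right
    have heq := hmin _ hn (Subgroup.map_subtype_le _)
      (fun e => hb ((Subgroup.map_eq_bot_iff_of_injective _ N.subtype_injective).1 e))
    rw [eq_top_iff]
    intro m _
    obtain ⟨m', hm', e⟩ := heq.ge m.2
    rwa [← Subtype.ext e]
  rw [not_not] at hCne
  obtain ⟨T, ⟨hTne, hTN, hTn⟩, hTmin⟩ :=
    (Set.toFinite {T : Subgroup G | T ≠ ⊥ ∧ T ≤ N ∧ ∀ n ∈ N, ∀ t ∈ T, n * t * n⁻¹ ∈ T}).exists_minimal
      ⟨N, hNne, le_rfl, fun n hn t ht => N.mul_mem (N.mul_mem hn ht) (N.inv_mem hn)⟩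
  by_cases hTnormal : T.Normal
  · right
    have hTN' : T = N := hmin T hTnormal hTN hTne
    refine ⟨N, hNn, ?_, hab, hCne⟩
    refine ⟨fun K hK => ?_⟩
    by_cases hKbot : K = ⊥
    · exact Or.inl hKbot
    right
    have hle : T ≤ K.map N.subtype := hTmin ⟨fun e => hKbot ((Subgroup.map_eq_bot_iff_of_injective K N.subtype_injective).1 e),
      fun x hx => by obtain ⟨k, -, rfl⟩ := hx; exact k.2,
      fun n hn x hx => by
        obtain ⟨k, hk, rfl⟩ := hx
        exact ⟨⟨n, hn⟩ * k * ⟨n, hn⟩⁻¹, hK.conj_mem k hk ⟨n, hn⟩, rfl⟩⟩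
      (fun x hx => by rw [hTN']; obtain ⟨k, -, rfl⟩ := hx; exact k.2)
    rw [eq_top_iff]
    intro k _
    obtain ⟨k', hk', e⟩ := hle (show (k : G) ∈ T by rw [hTN']; exact k.2)
    rwa [Subtype.ext e] at hk'
  exfalso
  let cj : G → Subgroup G → Subgroup G := fun g S => S.map (MulAut.conj g).toMonoidHom
  have hcjmem : ∀ g S, ∀ s ∈ S, g * s * g⁻¹ ∈ cj g S := fun g S s hs => ⟨s, hs, rfl⟩
  have hcjmul : ∀ a b S, cj a (cj b S) = cj (a * b) S := fun a b S => by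
    simp only [cj, Subgroup.map_map, map_mul]
    rfl
  have hcjone : ∀ S, cj 1 S = S := fun S => by
    ext; simp [cj]
  have hcjinj : ∀ a S S', cj a S = cj a S' → S = S' := fun a S S' h =>
    Subgroup.map_injective (MulEquiv.injective (MulAut.conj a)) h
  have hfixN : ∀ S : Subgroup G, (∀ n ∈ N, ∀ t ∈ S, n * t * n⁻¹ ∈ S) → ∀ n ∈ N, cj n S = S := by
    intro S hS n hn
    refine le_antisymm ?_ fun t ht => ⟨n⁻¹ * t * n, ?_, by simp [mul_assoc]⟩
    · rintro _ ⟨t, ht, rfl⟩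
      exact hS n hn t ht
    · simpa using hS n⁻¹ (N.inv_mem hn) t ht
  set 𝒯 := Set.range fun h : H => cj (h : G) T with h𝒯
  have hTmem : T ∈ 𝒯 := ⟨1, by simp [hcjone]⟩
  have hcjT : ∀ g : G, cj g T ∈ 𝒯 := by
    intro g
    obtain ⟨n, hn, h, hh, rfl⟩ := hGNH g
    refine ⟨⟨h, hh⟩, ?_⟩
    show cj h T = cj (n * h) T
    rw [← hcjmul, hfixN (cj h T) ?_ n hn]
    rintro n' hn' _ ⟨t, ht, rfl⟩
    exact ⟨_, hTn (h⁻¹ * n' * h) (by simpa using hNn.conj_mem n' hn' h⁻¹) t ht, by simp [mul_assoc]⟩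
  have h𝒯mem : ∀ g : G, ∀ S ∈ 𝒯, cj g S ∈ 𝒯 := by
    rintro g _ ⟨h, rfl⟩
    show cj g (cj (h : G) T) ∈ 𝒯
    rw [hcjmul]; exact hcjT _
  have hall : ∀ S ∈ 𝒯, S ≤ N ∧ ∀ n ∈ N, ∀ s ∈ S, n * s * n⁻¹ ∈ S := by
    rintro _ ⟨y, rfl⟩
    refine ⟨?_, ?_⟩
    · rintro _ ⟨t, ht, rfl⟩
      exact hNn.conj_mem t (hTN ht) y
    · rintro n hn _ ⟨t, ht, rfl⟩
      exact ⟨_, hTn ((y : G)⁻¹ * n * y) (by simpa [mul_assoc] using hNn.conj_mem n hn (y : G)⁻¹) t ht,
        by simp [mul_assoc]⟩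
  have hdisjT : ∀ S ∈ 𝒯, S ≠ T → T ⊓ S = ⊥ := by
    intro S hS hST
    by_contra h
    have : T ≤ T ⊓ S := hTmin ⟨h, inf_le_left.trans hTN, fun n hn x hx =>
      ⟨hTn n hn x hx.1, (hall S hS).2 n hn x hx.2⟩⟩ inf_le_left
    obtain ⟨y, rfl⟩ := hS
    exact hST (Subgroup.eq_of_le_of_card_ge (le_trans this inf_le_right)
      (le_of_eq (Subgroup.card_map_of_injective (MulEquiv.injective (MulAut.conj (y : G)))))).symm
  have hdisj : ∀ S₁ ∈ 𝒯, ∀ S₂ ∈ 𝒯, S₁ ≠ S₂ → ∀ a ∈ S₁, a ∈ S₂ → a = 1 := by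
    rintro _ ⟨h, rfl⟩ S₂ hS₂ hne a ha ha2
    obtain ⟨t, ht, rfl⟩ := ha
    have h2 : t ∈ T ⊓ cj (h : G)⁻¹ S₂ := ⟨ht, ⟨_, ha2, by simp [mul_assoc]⟩⟩
    rw [hdisjT _ (h𝒯mem _ _ hS₂) (fun e => hne ?_), Subgroup.mem_bot] at h2
    · simp [h2]
    · show cj (h : G) T = S₂
      rw [← e, hcjmul, mul_inv_cancel, hcjone]
  have hcomm : ∀ S₁ ∈ 𝒯, ∀ S₂ ∈ 𝒯, S₁ ≠ S₂ → ∀ a ∈ S₁, ∀ b ∈ S₂, a * b = b * a := by
    intro S₁ h₁ S₂ h₂ hne a ha b hb
    have h1 : a * b * a⁻¹ * b⁻¹ ∈ S₁ := by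
      have := S₁.mul_mem ha ((hall S₁ h₁).2 b ((hall S₂ h₂).1 hb) a⁻¹ (S₁.inv_mem ha))
      simpa [mul_assoc] using this
    have h2 : a * b * a⁻¹ * b⁻¹ ∈ S₂ :=
      S₂.mul_mem ((hall S₂ h₂).2 a ((hall S₁ h₁).1 ha) b hb) (S₂.inv_mem hb)
    have h3 := hdisj S₁ h₁ S₂ h₂ hne _ h1 h2
    rwa [mul_inv_eq_one, mul_inv_eq_iff_eq_mul] at h3
  let R : Subgroup G → Subgroup G := fun S => sSup {S' | S' ∈ 𝒯 ∧ S' ≠ S}
  have hRle : ∀ S S', S' ∈ 𝒯 → S' ≠ S → S' ≤ R S := fun S S' h1 h2 => le_sSup ⟨h1, h2⟩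
  have hRN : ∀ S, R S ≤ N := fun S => sSup_le fun S' hS' => (hall S' hS'.1).1
  have hRC : R T ≤ Subgroup.centralizer (T : Set G) := sSup_le fun S ⟨hS, hne⟩ s hs =>
    Subgroup.mem_centralizer_iff.2 fun t ht => hcomm T hTmem S hS hne.symm t ht s hs
  have hRcj : ∀ g S, cj g (R S) ≤ R (cj g S) := by
    intro g S
    show (sSup {S' | S' ∈ 𝒯 ∧ S' ≠ S}).map (MulAut.conj g).toMonoidHom ≤ _
    rw [(Subgroup.gc_map_comap _).l_sSup]
    exact iSup₂_le fun S' ⟨h1, h2⟩ => hRle _ _ (h𝒯mem g S' h1) fun e => h2 (hcjinj g _ _ e)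
  have hRnorm : ∀ n ∈ N, ∀ r ∈ R T, n * r * n⁻¹ ∈ R T := by
    intro n hn r hr
    have h1 := hRcj n T (hcjmem n (R T) r hr)
    rwa [hfixN T hTn n hn] at h1
  have hTR : T ⊔ R T = N := by
    have hle : ∀ S ∈ 𝒯, S ≤ T ⊔ R T := fun S hS => by
      by_cases h : S = T
      · exact h ▸ le_sup_left
      · exact le_sup_of_le_right (hRle T S hS h)
    refine le_antisymm (sup_le hTN (hRN T)) ?_
    have hn : (sSup 𝒯).Normal := by
      have key : ∀ g : G, cj g (sSup 𝒯) ≤ sSup 𝒯 := by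
        intro g
        show (sSup 𝒯).map (MulAut.conj g).toMonoidHom ≤ _
        rw [(Subgroup.gc_map_comap _).l_sSup]
        exact iSup₂_le fun S hS => le_sSup (h𝒯mem g S hS)
      exact ⟨fun x hx g => key g (hcjmem g _ x hx)⟩
    rw [← hmin _ hn (sSup_le fun S hS => (hall S hS).1)
      (fun h => hTne (le_bot_iff.1 (h ▸ le_sSup hTmem)))]
    exact sSup_le hle
  have hZT : T ⊓ Subgroup.centralizer (T : Set G) = ⊥ := by
    rw [Subgroup.eq_bot_iff_forall]
    rintro z ⟨hz, hz'⟩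
    have : N ≤ Subgroup.centralizer ({z} : Set G) := by
      rw [← hTR]
      refine sup_le (fun t ht => ?_) (fun r hr => ?_)
      · rw [Subgroup.mem_centralizer_singleton_iff]; exact (Subgroup.mem_centralizer_iff.1 hz' t ht)
      · rw [Subgroup.mem_centralizer_singleton_iff]
        exact (Subgroup.mem_centralizer_iff.1 (hRC hr) z hz).symm
    have : z ∈ N ⊓ C := ⟨hTN hz, Subgroup.mem_centralizer_iff.2 fun n hn =>
      Subgroup.mem_centralizer_singleton_iff.1 (this hn)⟩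
    rwa [hCN, Subgroup.mem_bot] at this
  have hTR' : ∀ z ∈ T, z ∈ R T → z = 1 := fun z h1 h2 =>
    Subgroup.mem_bot.1 (hZT ▸ (⟨h1, hRC h2⟩ : z ∈ T ⊓ Subgroup.centralizer (T : Set G)))
  obtain ⟨g₀, hg₀⟩ : ∃ g : G, cj g T ≠ T := by
    by_contra h
    push_neg at h
    exact hTnormal ⟨fun t ht g => h g ▸ hcjmem g T t ht⟩
  obtain ⟨⟨h₀, hh₀⟩, hh₀T⟩ := hcjT g₀
  have hh₀ne : cj h₀ T ≠ T := fun e => hg₀ (hh₀T ▸ e)
  set D := N ⊓ H with hD
  haveI : Nontrivial Ω := hΩ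
  have hmaxG : IsCoatom H := IsPreprimitive.isCoatom_stabilizer_of_isPreprimitive G α
  have hbetween : ∀ L : Subgroup G, L ≤ N → D ≤ L → (∀ h ∈ H, ∀ l ∈ L, h * l * h⁻¹ ∈ L) →
      L ≤ D ∨ N ≤ L := by
    intro L hLN hDL hinv
    have hle : H ≤ Subgroup.normalizer (L : Set G) := fun h hh => Subgroup.mem_normalizer_iff.2
      fun l => ⟨hinv h hh l, fun hl => by simpa [mul_assoc] using hinv h⁻¹ (inv_mem hh) _ hl⟩
    rcases hmaxG.le_iff.1 (le_sup_left : H ≤ H ⊔ L) with htop | heq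
    · right
      intro n hn
      have h1 : n ∈ ((H ⊔ L : Subgroup G) : Set G) := by rw [htop]; trivial
      rw [Subgroup.coe_mul_of_left_le_normalizer_right H L hle] at h1
      obtain ⟨h, hh, l, hl, rfl⟩ := h1
      refine L.mul_mem (hDL ⟨?_, hh⟩) hl
      simpa using N.mul_mem hn (N.inv_mem (hLN hl))
    · exact Or.inl (le_inf hLN (le_sup_right.trans heq.le))
  -- conjugation of base points
  have hbase : ∀ h ∈ H, ∀ x : G, (h * x * h⁻¹) • α = h • x • α := fun h hh x => by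
    rw [mul_smul, mul_smul, inv_smul_eq_iff.2 (mem_stabilizer_iff.1 hh).symm]
  have hTH : ¬ T ≤ H := fun hle => hTne (by
    rw [Subgroup.eq_bot_iff_forall]
    intro t ht
    refine FaithfulSMul.eq_of_smul_eq_smul (α := Ω) fun ω => ?_
    obtain ⟨n, rfl⟩ := exists_smul_eq N α ω
    have h : ((n : G)⁻¹ * t * n) • α = α :=
      hle (by simpa using hTn (n : G)⁻¹ (N.inv_mem n.2) t ht)
    rw [mul_smul, mul_smul, inv_smul_eq_iff] at h
    rw [one_smul]
    exact h)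
  obtain ⟨x, hxT, hxH⟩ := SetLike.not_le_iff_exists.1 hTH
  have hxα : x • α ≠ α := hxH
  by_cases hDbot : D = ⊥
  · -- the regular case
    have heqN : ∀ a ∈ N, ∀ b ∈ N, a • α = b • α → a = b := fun a ha b hb e => by
      have h1 : b⁻¹ * a ∈ D := ⟨N.mul_mem (N.inv_mem hb) ha, show (b⁻¹ * a) • α = α by
        rw [mul_smul, e, inv_smul_smul]⟩
      rw [hDbot, Subgroup.mem_bot] at h1
      exact (inv_mul_eq_one.1 h1).symm
    let B : Set (orbit H (x • α)) := {z | ∃ y ∈ T, y • α = (z : Ω)}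
    have hB : IsBlock H B := by
      rw [isBlock_iff_smul_eq_of_nonempty]
      rintro k ⟨z, ⟨z', ⟨y', hy', hz'⟩, rfl⟩, y, hy, hz⟩
      have hy1 : (k : G) * y' * (k : G)⁻¹ = y := by
        refine heqN _ (hNn.conj_mem y' (hTN hy') _) y (hTN hy) ?_
        rw [hbase k k.2, hz', hz]; rfl
      have hy0 : y ≠ 1 := by
        rintro rfl
        obtain ⟨⟨l, hl⟩, hl'⟩ := (k • z' : orbit H (x • α)).2
        rw [one_smul] at hz
        have h1 : l • x • α = α := hl'.trans hz.symm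
        exact hxα (smul_left_cancel l (h1.trans (mem_stabilizer_iff.1 hl).symm))
      have hkT : cj (k : G) T = T := by
        by_contra hne
        exact hy0 (hdisj _ (hcjT _) T hTmem hne y (hy1 ▸ hcjmem _ T y' hy') hy)
      ext u
      constructor
      · rintro ⟨v, ⟨w, hw, hv⟩, rfl⟩
        refine ⟨(k : G) * w * (k : G)⁻¹, hkT.le (hcjmem _ T w hw), ?_⟩
        rw [hbase k k.2, hv]; rfl
      · rintro ⟨w, hw, hu⟩
        refine ⟨k⁻¹ • u, ?_, smul_inv_smul k u⟩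
        obtain ⟨w', hw', hw''⟩ := hkT.ge hw
        have hw''' : (k : G) * w' * (k : G)⁻¹ = w := hw''
        refine ⟨w', hw', ?_⟩
        show w' • α = (k : G)⁻¹ • (u : Ω)
        rw [← hu, eq_inv_smul_iff, ← hbase k k.2, hw''']
    have hx₀ : (⟨x • α, mem_orbit_self _⟩ : orbit H (x • α)) ∈ B := ⟨x, hxT, rfl⟩
    have hsingle : ∀ h ∈ H, cj h T = T → h * x * h⁻¹ = x := by
      intro h hh he
      rcases (hep α (x • α)).isTrivialBlock_of_isBlock hB with hs | hu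
      · have hmem : (⟨h • x • α, ⟨⟨h, hh⟩, rfl⟩⟩ : orbit H (x • α)) ∈ B :=
          ⟨h * x * h⁻¹, he.le (hcjmem h T x hxT), hbase h hh x⟩
        have h1 := congrArg Subtype.val (hs hmem hx₀)
        exact heqN _ (hNn.conj_mem x (hTN hxT) h) x (hTN hxT) ((hbase h hh x).trans h1)
      · exfalso
        obtain ⟨y, hy, hy'⟩ : (⟨h₀ • x • α, ⟨⟨h₀, hh₀⟩, rfl⟩⟩ : orbit H (x • α)) ∈ B :=
          hu ▸ Set.mem_univ _
        have h1 : h₀ * x * h₀⁻¹ = y :=
          heqN _ (hNn.conj_mem x (hTN hxT) h₀) y (hTN hy) ((hbase h₀ hh₀ x).trans hy'.symm)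
        have h2 := hdisj _ (hcjT h₀) T hTmem hh₀ne _ (hcjmem h₀ T x hxT) (h1 ▸ hy)
        exact hxH (by rw [conj_eq_one_iff.1 h2]; exact one_mem _)
    set X := Set.range fun h : H => (h : G) * x * (h : G)⁻¹ with hX
    have hXc : ∀ a ∈ X, ∀ b ∈ X, a * b = b * a := by
      rintro _ ⟨a, rfl⟩ _ ⟨b, rfl⟩
      show (a : G) * x * (a : G)⁻¹ * ((b : G) * x * (b : G)⁻¹) =
        (b : G) * x * (b : G)⁻¹ * ((a : G) * x * (a : G)⁻¹)
      by_cases he : cj (a : G) T = cj (b : G) T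
      · have h1 := hsingle ((b : G)⁻¹ * a) (H.mul_mem (H.inv_mem b.2) a.2)
          (by rw [← hcjmul, he, hcjmul, inv_mul_cancel, hcjone])
        have h2 : (a : G) * x * (a : G)⁻¹ = (b : G) * x * (b : G)⁻¹ := by
          conv_rhs => rw [← h1]
          group
        rw [h2]
      · exact hcomm _ (hcjT _) _ (hcjT _) he _ (hcjmem _ T x hxT) _ (hcjmem _ T x hxT)
    have hXN : Subgroup.closure X ≤ N := (Subgroup.closure_le _).2 (by
      rintro _ ⟨a, rfl⟩; exact hNn.conj_mem x (hTN hxT) _)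
    have hXinv : ∀ h ∈ H, ∀ l ∈ Subgroup.closure X, h * l * h⁻¹ ∈ Subgroup.closure X := by
      intro h hh l hl
      have : (Subgroup.closure X).map (MulAut.conj h).toMonoidHom ≤ Subgroup.closure X := by
        rw [MonoidHom.map_closure, Subgroup.closure_le]
        rintro _ ⟨_, ⟨a, rfl⟩, rfl⟩
        exact Subgroup.subset_closure ⟨⟨h, hh⟩ * a, by simp [mul_assoc]⟩
      exact this ⟨l, hl, rfl⟩
    rcases hbetween _ hXN (by rw [hDbot]; exact bot_le) hXinv with h | h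
    · have hx0 : x ∈ D := h (Subgroup.subset_closure ⟨1, by simp⟩)
      exact hxH hx0.2
    · refine hab ⟨⟨fun a b => Subtype.ext ?_⟩⟩
      show (a : G) * b = b * a
      have hle : Subgroup.closure X ≤ Subgroup.centralizer (X : Set G) := (Subgroup.closure_le _).2
        fun a ha => Subgroup.mem_centralizer_iff.2 fun b hb => hXc b hb a ha
      have hle2 : Subgroup.closure X ≤ Subgroup.centralizer ({(b : G)} : Set G) := (Subgroup.closure_le _).2
        fun y hy => Subgroup.mem_centralizer_singleton_iff.2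
          (Subgroup.mem_centralizer_iff.1 (hle (h b.2)) y hy)
      exact Subgroup.mem_centralizer_singleton_iff.1 (hle2 (h a.2))
  -- the stabiliser in `N` is transitive on each suborbit
  have hDconj : ∀ h ∈ H, ∀ d ∈ D, h * d * h⁻¹ ∈ D := fun h hh d hd =>
    ⟨hNn.conj_mem d hd.1 h, H.mul_mem (H.mul_mem hh hd.2) (H.inv_mem hh)⟩
  have hkey : ∀ h ∈ H, ∀ t ∈ T, ∃ t₁ ∈ T, t₁⁻¹ * (h * t * h⁻¹) ∈ D := by
    intro h hh t ht
    by_cases htα : t • α = α
    · refine ⟨1, T.one_mem, ?_⟩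
      rw [inv_one, one_mul]
      exact hDconj h hh t ⟨hTN ht, htα⟩
    rcases fix_or_transitive (hep α (t • α)) D inf_le_right hDconj (mem_orbit_self (t • α)) with hf | ht'
    · obtain ⟨d, hd, hd1⟩ := D.bot_or_exists_ne_one.resolve_left hDbot
      exact absurd (manning hprim hep α (t • α) htα d (mem_stabilizer_iff.1 hd.2)
        fun g hg => hf _ ⟨⟨g, hg⟩, rfl⟩ d hd) hd1
    · obtain ⟨d, hd, hdt⟩ := ht' (h • t • α) ⟨⟨h, hh⟩, rfl⟩
      refine ⟨d * t * d⁻¹, hTn d hd.1 t ht, ?_, ?_⟩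
      · exact N.mul_mem (N.inv_mem (hTN (hTn d hd.1 t ht))) (hNn.conj_mem t (hTN ht) h)
      · show ((d * t * d⁻¹)⁻¹ * (h * t * h⁻¹)) • α = α
        rw [mul_smul, hbase h hh, ← hdt, ← hbase d hd.2, inv_smul_smul]
  -- product action is impossible
  let PT : Subgroup G → Subgroup G := fun S => D ⊔ R S
  let P : Subgroup G := N ⊓ ⨅ S ∈ 𝒯, PT S
  have hP : D ⊔ R T = N := by
    have hPD : ∀ h ∈ H, ∀ l ∈ P, h * l * h⁻¹ ∈ P := by
      rintro h hh l ⟨hlN, hl⟩
      refine ⟨hNn.conj_mem l hlN h, ?_⟩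
      replace hl : l ∈ ⨅ S ∈ 𝒯, PT S := hl
      show _ ∈ ⨅ S ∈ 𝒯, PT S
      simp only [Subgroup.mem_iInf] at hl ⊢
      intro S hS
      have h1 := hl (cj h⁻¹ S) (h𝒯mem _ S hS)
      have h2 : cj h (PT (cj h⁻¹ S)) ≤ PT S := by
        show (D ⊔ R (cj h⁻¹ S)).map _ ≤ D ⊔ R S
        rw [Subgroup.map_sup]
        refine sup_le_sup ?_ ?_
        · rintro _ ⟨d, hd, rfl⟩; exact hDconj h hh d hd
        · have := hRcj h (cj h⁻¹ S)
          rwa [hcjmul, mul_inv_cancel, hcjone] at this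
      exact h2 (hcjmem h _ l h1)
    rcases hbetween P inf_le_left (le_inf inf_le_left (le_iInf₂ fun S _ => le_sup_left)) hPD with h | h
    · exfalso
      obtain ⟨t₁, ht₁, hd⟩ := hkey h₀ hh₀ x hxT
      have hmem : t₁ ∈ PT T := by
        have e1 : h₀ * x * h₀⁻¹ ∈ R T := hRle T _ (hcjT h₀) hh₀ne (hcjmem h₀ T x hxT)
        have e2 : t₁ = h₀ * x * h₀⁻¹ * (t₁⁻¹ * (h₀ * x * h₀⁻¹))⁻¹ := by group
        rw [e2]
        exact (PT T).mul_mem (Subgroup.mem_sup_right e1) ((PT T).inv_mem (Subgroup.mem_sup_left hd))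
      have htP : t₁ ∈ P := ⟨hTN ht₁, by
        show _ ∈ ⨅ S ∈ 𝒯, PT S
        simp only [Subgroup.mem_iInf]
        intro S hS
        by_cases he : S = T
        · exact he ▸ hmem
        · exact Subgroup.mem_sup_right (hRle S T hTmem (Ne.symm he) ht₁)⟩
      have h1 : t₁ • α = α := (h htP).2
      have h2 : (t₁⁻¹ * (h₀ * x * h₀⁻¹)) • α = α := hd.2
      rw [mul_smul, hbase h₀ hh₀, inv_smul_eq_iff, h1] at h2
      exact hxα (smul_left_cancel h₀ (h2.trans (mem_stabilizer_iff.1 hh₀).symm))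
    · refine le_antisymm (sup_le inf_le_left (hRN T)) fun n hn => ?_
      have : n ∈ ⨅ S ∈ 𝒯, PT S := (h hn).2
      simp only [Subgroup.mem_iInf] at this
      exact this T hTmem
  have hA : ∀ t ∈ T, t • α = α → t = 1 := by
    by_contra hcon
    push_neg at hcon
    obtain ⟨a, ha, haα, ha1⟩ := hcon
    have hNnorm : ∀ n ∈ N, ∀ y ∈ T ⊓ H, n * y * n⁻¹ ∈ T ⊓ H := by
      have hle : N ≤ Subgroup.normalizer ((T ⊓ H : Subgroup G) : Set G) := by
        rw [← hP]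
        refine sup_le ?_ ?_
        · intro d hd
          refine Subgroup.mem_normalizer_iff.2 fun y => ?_
          have key : ∀ d ∈ D, ∀ y ∈ T ⊓ H, d * y * d⁻¹ ∈ T ⊓ H := fun d hd y hy =>
            ⟨hTn d hd.1 y hy.1, H.mul_mem (H.mul_mem hd.2 hy.2) (H.inv_mem hd.2)⟩
          exact ⟨key d hd y, fun hy => by simpa [mul_assoc] using key d⁻¹ (inv_mem hd) _ hy⟩
        · intro r hr
          refine Subgroup.mem_normalizer_iff.2 fun y => ?_
          have key : ∀ r ∈ R T, ∀ y ∈ T ⊓ H, r * y * r⁻¹ ∈ T ⊓ H := fun r hr y hy => by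
            rw [← Subgroup.mem_centralizer_iff.1 (hRC hr) y hy.1, mul_inv_cancel_right]; exact hy
          exact ⟨key r hr y, fun hy => by simpa [mul_assoc] using key r⁻¹ (inv_mem hr) _ hy⟩
      intro n hn y hy
      exact (Subgroup.mem_normalizer_iff.1 (hle hn) y).1 hy
    exact hTH ((hTmin ⟨fun e => ha1 (Subgroup.mem_bot.1 (e ▸ (⟨ha, haα⟩ : a ∈ T ⊓ H))),
      inf_le_left.trans hTN, hNnorm⟩ inf_le_left).trans inf_le_right)
  haveI : Nontrivial T := (Subgroup.nontrivial_iff_ne_bot _).2 hTne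
  have hcT : Subgroup.center T = ⊥ := by
    rw [Subgroup.eq_bot_iff_forall]
    intro z hz
    exact Subtype.ext (Subgroup.mem_bot.1 (hZT ▸ (⟨z.2, Subgroup.mem_centralizer_iff.2 fun t ht =>
      congrArg Subtype.val (Subgroup.mem_center_iff.1 hz ⟨t, ht⟩)⟩ :
        (z : G) ∈ T ⊓ Subgroup.centralizer (T : Set G))))
  -- the diagonal partner maps are onto
  have honto : ∀ h ∈ H, ∀ a ∈ T, ∃ t ∈ T, a⁻¹ * (h * t * h⁻¹) ∈ D := by
    intro h hh
    choose f hfT hfD using fun t : T => hkey h hh t t.2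
    have hinj : Function.Injective fun t : T => (⟨f t, hfT t⟩ : T) := by
      intro t s hts
      have e : f t = f s := congrArg Subtype.val hts
      have h1 := D.mul_mem (D.inv_mem (hfD s)) (hfD t)
      rw [e] at h1
      have h2 : h * ((s : G)⁻¹ * t) * h⁻¹ ∈ H := by
        have := h1.2
        rwa [show ((f s)⁻¹ * (h * (s : G) * h⁻¹))⁻¹ * ((f s)⁻¹ * (h * (t : G) * h⁻¹)) =
          h * ((s : G)⁻¹ * t) * h⁻¹ by group] at this
      have h3 : (s : G)⁻¹ * t ∈ H := by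
        have := mul_mem (mul_mem (inv_mem hh) h2) hh
        simpa [mul_assoc] using this
      exact Subtype.ext (inv_mul_eq_one.1 (hA _ (T.mul_mem (T.inv_mem s.2) t.2) h3)).symm
    intro a ha
    obtain ⟨t, ht⟩ := (Finite.injective_iff_surjective.1 hinj) ⟨a, ha⟩
    have hfa : f t = a := congrArg Subtype.val ht
    exact ⟨t, t.2, hfa ▸ hfD t⟩
  set T' := cj h₀ T with hT'
  have hT'mem : T' ∈ 𝒯 := hcjT h₀
  have htwo : ∀ S ∈ 𝒯, S = T ∨ S = T' := by
    intro S hS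
    by_contra hcon
    push_neg at hcon
    obtain ⟨hST, hST'⟩ := hcon
    obtain ⟨⟨h₁, hh₁⟩, rfl⟩ := hS
    apply hTne
    rw [Subgroup.eq_bot_iff_forall]
    intro a ha
    suffices hz : (⟨a, ha⟩ : T) ∈ Subgroup.center T by
      rw [hcT, Subgroup.mem_bot] at hz
      exact congrArg Subtype.val hz
    rw [Subgroup.mem_center_iff]
    rintro ⟨b, hb⟩
    refine Subtype.ext ?_
    show b * a = a * b
    obtain ⟨t, ht, hd⟩ := honto h₀ hh₀ a ha
    obtain ⟨s, hs, hd'⟩ := honto h₁ hh₁ b hb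
    set u := h₀ * t * h₀⁻¹
    set v := h₁ * s * h₁⁻¹
    have hu : u ∈ T' := hcjmem h₀ T t ht
    have hv : v ∈ cj h₁ T := hcjmem h₁ T s hs
    have hSmem : cj h₁ T ∈ 𝒯 := hcjT h₁
    have c1 : ∀ y ∈ T, y * u = u * y := fun y hy => hcomm T hTmem T' hT'mem hh₀ne.symm y hy u hu
    have c2 : ∀ y ∈ T, y * v = v * y := fun y hy => hcomm T hTmem _ hSmem (Ne.symm hST) y hy v hv
    have c3 : u * v = v * u := hcomm T' hT'mem _ hSmem (Ne.symm hST') u hu v hv
    have hmem : a⁻¹ * b⁻¹ * (a⁻¹)⁻¹ * (b⁻¹)⁻¹ ∈ D := by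
      have h1 := D.mul_mem (D.mul_mem (D.mul_mem hd hd') (D.inv_mem hd)) (D.inv_mem hd')
      have e : a⁻¹ * u * (b⁻¹ * v) * (a⁻¹ * u)⁻¹ * (b⁻¹ * v)⁻¹ = a⁻¹ * b⁻¹ * (a⁻¹)⁻¹ * (b⁻¹)⁻¹ := by
        calc a⁻¹ * u * (b⁻¹ * v) * (a⁻¹ * u)⁻¹ * (b⁻¹ * v)⁻¹
            = a⁻¹ * (u * b⁻¹) * v * u⁻¹ * a * v⁻¹ * b := by group
          _ = a⁻¹ * b⁻¹ * (u * v) * u⁻¹ * a * v⁻¹ * b := by
              rw [← c1 b⁻¹ (T.inv_mem hb)]; group
          _ = a⁻¹ * b⁻¹ * (v * a) * v⁻¹ * b := by rw [c3]; group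
          _ = a⁻¹ * b⁻¹ * (a⁻¹)⁻¹ * (b⁻¹)⁻¹ := by rw [← c2 a ha]; group
      rwa [e] at h1
    have h0 := hA _ (T.mul_mem (T.mul_mem (T.mul_mem (T.inv_mem ha) (T.inv_mem hb))
      (T.inv_mem (T.inv_mem ha))) (T.inv_mem (T.inv_mem hb))) hmem.2
    rw [inv_inv, inv_inv] at h0
    calc b * a = b * a * (a⁻¹ * b⁻¹ * a * b) := by rw [h0, mul_one]
      _ = a * b := by group
  have hR' : R T = T' := le_antisymm
    (sSup_le fun S ⟨hS, hne⟩ => ((htwo S hS).resolve_left hne).le) (hRle T T' hT'mem hh₀ne)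
  haveI hT't : IsPretransitive T' Ω := by
    rw [isPretransitive_iff_orbit_eq_univ α, Set.eq_univ_iff_forall]
    intro ω
    obtain ⟨n, hn⟩ := exists_smul_eq N α ω
    have h1 : (n : G)⁻¹ ∈ ((D ⊔ T' : Subgroup G) : Set G) := by
      rw [← hR', hP]; exact N.inv_mem n.2
    rw [Subgroup.coe_mul_of_left_le_normalizer_right D T' (fun d hd => Subgroup.mem_normalizer_iff.2
      fun y => ⟨fun hy => (hall T' hT'mem).2 d hd.1 y hy, fun hy => by
        simpa [mul_assoc] using (hall T' hT'mem).2 d⁻¹ (N.inv_mem hd.1) _ hy⟩)] at h1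
    obtain ⟨d, hd, u, hu, hdu⟩ := h1
    refine ⟨⟨u⁻¹, T'.inv_mem hu⟩, ?_⟩
    show u⁻¹ • α = ω
    rw [← hn, Subgroup.smul_def, show (n : G) = u⁻¹ * d⁻¹ by rw [← mul_inv_rev, ← inv_inv (n : G)]; exact congrArg _ hdu.symm,
      mul_smul, inv_smul_eq_iff.2 (mem_stabilizer_iff.1 hd.2).symm]
  haveI : IsPretransitive T Ω := by
    rw [isPretransitive_iff_orbit_eq_univ α, Set.eq_univ_iff_forall]
    intro ω
    obtain ⟨u, hu⟩ := exists_smul_eq T' α (h₀ • ω)
    obtain ⟨t, ht, htu⟩ := u.2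
    refine ⟨⟨t, ht⟩, ?_⟩
    show t • α = ω
    have h1 : (h₀ * t * h₀⁻¹) • α = h₀ • ω := by
      rw [show h₀ * t * h₀⁻¹ = (u : G) from htu]; exact hu
    rw [hbase h₀ hh₀] at h1
    exact smul_left_cancel h₀ h1
  have hc12 : ∀ m ∈ T, ∀ l ∈ T', m * l = l * m := hcomm T hTmem T' hT'mem hh₀ne.symm
  refine false_of_two_regular hep α T T' hc12 hA (hsemi T T' inferInstance hc12) ?_ hcT ?_
  · intro h hh
    have hne2 : cj h T' ≠ cj h T := fun e => hh₀ne (hcjinj h _ _ e)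
    rcases htwo _ (hcjT h) with h1 | h1 <;> rcases htwo _ (h𝒯mem h T' hT'mem) with h2 | h2
    · exact absurd (h2.trans h1.symm) hne2
    · exact Or.inl ⟨fun m hm => h1.le (hcjmem h T m hm), fun l hl => h2.le (hcjmem h T' l hl)⟩
    · exact Or.inr ⟨fun m hm => h1.le (hcjmem h T m hm), fun l hl => h2.le (hcjmem h T' l hl)⟩
    · exact absurd (h2.trans h1.symm) hne2
  · intro L₀ hL₀ _
    by_cases hb : L₀ = ⊥
    · exact Or.inl hb
    right
    have hle : T ≤ L₀.map T.subtype := by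
      refine hTmin ⟨fun e => hb ((Subgroup.map_eq_bot_iff_of_injective _ T.subtype_injective).1 e),
        (Subgroup.map_subtype_le _).trans hTN, ?_⟩ (Subgroup.map_subtype_le _)
      have hle : N ≤ Subgroup.normalizer ((L₀.map T.subtype : Subgroup G) : Set G) := by
        rw [← hTR]
        refine sup_le ?_ ?_
        · intro t ht
          refine Subgroup.mem_normalizer_iff.2 fun y => ?_
          have key : ∀ t ∈ T, ∀ y ∈ L₀.map T.subtype, t * y * t⁻¹ ∈ L₀.map T.subtype := by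
            rintro t ht _ ⟨m, hm, rfl⟩
            exact ⟨⟨t, ht⟩ * m * ⟨t, ht⟩⁻¹, hL₀.conj_mem m hm _, rfl⟩
          exact ⟨key t ht y, fun hy => by simpa [mul_assoc] using key t⁻¹ (T.inv_mem ht) _ hy⟩
        · intro r hr
          refine Subgroup.mem_normalizer_iff.2 fun y => ?_
          have key : ∀ r ∈ R T, ∀ y ∈ L₀.map T.subtype, r * y * r⁻¹ ∈ L₀.map T.subtype := by
            rintro r hr _ ⟨m, hm, rfl⟩
            show r * (m : G) * r⁻¹ ∈ L₀.map T.subtype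
            rw [← Subgroup.mem_centralizer_iff.1 (hRC hr) m m.2, mul_inv_cancel_right]
            exact ⟨m, hm, rfl⟩
          exact ⟨key r hr y, fun hy => by simpa [mul_assoc] using key r⁻¹ (inv_mem hr) _ hy⟩
      intro n hn y hy
      exact (Subgroup.mem_normalizer_iff.1 (hle hn) y).1 hy
    rw [eq_top_iff]
    intro m _
    obtain ⟨m', hm', e⟩ := hle m.2
    rwa [← Subtype.ext e]

end CfsgLib.Extremely
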