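import Mathlib

/-! A group whose abelian normal subgroup is regular on each orbit of non-zero vectors: semilinear in dimension one. -/

namespace CfsgLib.Extremely

theorem semilinear {H M : Type*} [Group H] [Finite H] [AddCommGroup M] [Finite M] (p d q : ℕ)
    [hp : Fact p.Prime] [hq : Fact q.Prime] [Module (ZMod p) M] (hcard : Nat.card M = p ^ d) (hd : 0 < d)
    (ρ : H →* Module.End (ZMod p) M) (A : Subgroup H) [A.Normal] (hA : A ≠ ⊥)
    (hAab : ∀ a ∈ A, ∀ b ∈ A, a * b = b * a) (hAexp : ∀ a ∈ A, a ^ q = 1)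
    (hC : Subgroup.centralizer (A : Set H) ≤ A)
    (hfaith : ∀ h : H, ρ h = 1 → h = 1)
    (hfree : ∀ a ∈ A, ∀ v : M, v ≠ 0 → ρ a v = v → a = 1)
    (horb : ∀ (h : H) (v : M), ∃ a ∈ A, ρ h v = ρ a v)
    (hirr : ∀ W : Submodule (ZMod p) M, (∀ h : H, ∀ v ∈ W, ρ h v ∈ W) → W = ⊥ ∨ W = ⊤) :
    Nat.card A = q ∧ (∃ h : H, A ⊔ Subgroup.zpowers h = ⊤) ∧ Nat.card H ∣ q * d ∧
      q ∣ p ^ d - 1 ∧ ∀ i : ℕ, 0 < i → i < d → ¬ q ∣ p ^ i - 1 := by
  classical
  let K := Algebra.adjoin (ZMod p) (ρ '' (A : Set H))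
  have hKmem : ∀ a ∈ A, ρ a ∈ K := fun a ha => Algebra.subset_adjoin ⟨a, ha, rfl⟩
  have hcomm : ∀ x ∈ K, ∀ y ∈ K, x * y = y * x := by
    have h1 : ∀ a ∈ A, ∀ y ∈ K, ρ a * y = y * ρ a := by
      intro a ha y hy
      induction hy using Algebra.adjoin_induction with
      | mem z hz => obtain ⟨b, hb, rfl⟩ := hz; rw [← map_mul, ← map_mul, hAab a ha b hb]
      | algebraMap r => exact (Algebra.commutes r _).symm
      | add x y _ _ hx hy => rw [mul_add, add_mul, hx, hy]
      | mul x y _ _ hx hy => rw [← mul_assoc, hx, mul_assoc, hy, mul_assoc]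
    intro x hx y hy
    induction hx using Algebra.adjoin_induction with
    | mem z hz => obtain ⟨b, hb, rfl⟩ := hz; exact h1 b hb y hy
    | algebraMap r => exact Algebra.commutes r _
    | add a b _ _ ha hb => rw [add_mul, mul_add, ha, hb]
    | mul a b _ _ ha hb => rw [mul_assoc, hb, ← mul_assoc, ha, mul_assoc]
  -- invariance under `A` is invariance under `H`
  have hirrA : ∀ W : Submodule (ZMod p) M, (∀ a ∈ A, ∀ v ∈ W, ρ a v ∈ W) → W = ⊥ ∨ W = ⊤ :=
    fun W hW => hirr W fun h v hv => by obtain ⟨a, ha, e⟩ := horb h v; rw [e]; exact hW a ha v hv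
  haveI : Nontrivial M := Finite.one_lt_card_iff_nontrivial.1 (by
    rw [hcard]; exact Nat.one_lt_pow hd.ne' hp.out.one_lt)
  obtain ⟨v₀, hv₀⟩ := exists_ne (0 : M)
  have hker : ∀ x ∈ K, x ≠ 0 → ∀ v, x v = 0 → v = 0 := by
    intro x hx hx0 v hv
    rcases hirrA (LinearMap.ker x) (fun a ha w hw => by
      rw [LinearMap.mem_ker] at hw ⊢
      rw [← Module.End.mul_apply, hcomm x hx _ (hKmem a ha), Module.End.mul_apply, hw, map_zero]) with h | h
    · exact (Submodule.mem_bot _).1 (h ▸ LinearMap.mem_ker.2 hv)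
    · exact absurd (LinearMap.ker_eq_top.1 h) hx0
  letI : CommRing K := { (inferInstance : Ring K) with
    mul_comm := fun x y => Subtype.ext (hcomm x x.2 y y.2) }
  haveI : Nontrivial K := ⟨⟨0, 1, fun h => hv₀ (by
    have := LinearMap.congr_fun (congrArg Subtype.val h) v₀
    simpa using this.symm)⟩⟩
  haveI : NoZeroDivisors K := ⟨fun {x y} h => by
    by_contra hne
    push Not at hne
    refine hv₀ ?_
    refine hker y y.2 (fun e => hne.2 (Subtype.ext e)) v₀ ?_
    refine hker x x.2 (fun e => hne.1 (Subtype.ext e)) _ ?_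
    exact LinearMap.congr_fun (congrArg Subtype.val h) v₀⟩
  haveI : IsDomain K := NoZeroDivisors.to_isDomain K
  haveI : Finite (Module.End (ZMod p) M) := Finite.of_injective _ DFunLike.coe_injective
  haveI : Finite K := Subtype.finite
  haveI := Fintype.ofFinite K
  letI : Field K := Fintype.fieldOfDomain K
  -- evaluation at a vector
  let ev : K →ₗ[ZMod p] M :=
    { toFun := fun x => (x : Module.End (ZMod p) M) v₀
      map_add' := fun _ _ => rfl
      map_smul' := fun _ _ => rfl }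
  have hevinj : Function.Injective ev := by
    rw [injective_iff_map_eq_zero]
    intro x hx
    by_contra h
    exact hv₀ (hker x x.2 (fun e => h (Subtype.ext e)) v₀ hx)
  have hevsurj : Function.Surjective ev := by
    rcases hirrA (LinearMap.range ev) (fun a ha w hw => by
      obtain ⟨x, rfl⟩ := hw
      exact ⟨⟨ρ a, hKmem a ha⟩ * x, rfl⟩) with h | h
    · exact absurd ((Submodule.mem_bot _).1 (h ▸ ⟨1, rfl⟩ : v₀ ∈ (⊥ : Submodule (ZMod p) M))) hv₀
    · exact LinearMap.range_eq_top.1 h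
  have hKcard : Nat.card K = p ^ d := (Nat.card_congr (Equiv.ofBijective ev ⟨hevinj, hevsurj⟩)).trans hcard
  have hfin : Module.finrank (ZMod p) K = d := by
    haveI : Module.Finite (ZMod p) K := Module.Finite.of_finite
    have h := Module.natCard_eq_pow_finrank (K := ZMod p) (V := K)
    rw [hKcard, Nat.card_zmod] at h
    exact (Nat.pow_right_injective hp.out.two_le h).symm
  let ι₀ : A →* K :=
    { toFun := fun a => ⟨ρ a, hKmem a a.2⟩
      map_one' := Subtype.ext (map_one ρ)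
      map_mul' := fun a b => Subtype.ext (map_mul ρ (a : H) b) }
  let ι : A →* Kˣ := ι₀.toHomUnits
  have hι : Function.Injective ι := by
    rw [injective_iff_map_eq_one]
    intro a ha
    exact Subtype.ext (hfaith a (congrArg Subtype.val (congrArg Units.val ha)))
  haveI : IsCyclic A := isCyclic_of_injective ι hι
  haveI : Nontrivial A := (Subgroup.nontrivial_iff_ne_bot _).2 hA
  obtain ⟨a, ha⟩ := IsCyclic.exists_generator (α := A)
  have hqA : Nat.card A = q := by
    have h1 : orderOf a ∣ q := orderOf_dvd_of_pow_eq_one (Subtype.ext (hAexp a a.2))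
    rw [orderOf_eq_card_of_forall_mem_zpowers ha] at h1
    exact (hq.out.eq_one_or_self_of_dvd _ h1).resolve_left (Finite.one_lt_card (α := A)).ne'
  have hunits : Nat.card Kˣ = p ^ d - 1 := by rw [Nat.card_units, hKcard]
  refine ⟨hqA, and_assoc.1 ⟨?_, ?_, ?_⟩⟩
  rotate_left 1
  · rw [← hunits, ← hqA]; exact Subgroup.card_dvd_of_injective ι hι
  · intro i hi hid hdvd
    haveI : CharP K p := charP_of_injective_algebraMap' (ZMod p) p
    have hfix : ∀ x : K, x ^ p ^ i = x := by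
      rintro ⟨x, hx⟩
      induction hx using Algebra.adjoin_induction with
      | mem z hz =>
        obtain ⟨b, hb, rfl⟩ := hz
        refine Subtype.ext ?_
        rw [SubmonoidClass.coe_pow]
        show ρ b ^ p ^ i = ρ b
        rw [← map_pow]
        obtain ⟨j, hj⟩ := hdvd
        rw [show p ^ i = q * j + 1 by have := Nat.one_le_pow i p hp.out.pos; omega, pow_succ, pow_mul,
          hAexp b hb, one_pow, one_mul]
      | algebraMap r =>
        show (algebraMap (ZMod p) K r) ^ p ^ i = algebraMap (ZMod p) K r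
        rw [← map_pow, ZMod.pow_card_pow]
      | add u v hu hv ihu ihv =>
        have : (⟨u + v, add_mem hu hv⟩ : K) = ⟨u, hu⟩ + ⟨v, hv⟩ := rfl
        rw [this, add_pow_char_pow, ihu, ihv]
      | mul u v hu hv ihu ihv =>
        have : (⟨u * v, mul_mem hu hv⟩ : K) = ⟨u, hu⟩ * ⟨v, hv⟩ := rfl
        rw [this, mul_pow, ihu, ihv]
    obtain ⟨g, hg⟩ := IsCyclic.exists_generator (α := Kˣ)
    have h1 : g ^ (p ^ i - 1) = 1 := by
      refine mul_right_cancel (b := g) ?_
      rw [← pow_succ, one_mul, Nat.sub_add_cancel (Nat.one_le_pow i p hp.out.pos)]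
      exact Units.ext (by rw [Units.val_pow_eq_pow_val]; exact hfix _)
    have h2 := orderOf_dvd_of_pow_eq_one h1
    rw [orderOf_eq_card_of_forall_mem_zpowers hg, hunits] at h2
    have h3 : p ^ i - 1 < p ^ d - 1 :=
      Nat.sub_lt_sub_right (Nat.one_le_pow i p hp.out.pos) (Nat.pow_lt_pow_right hp.out.one_lt hid)
    have h4 : 0 < p ^ i - 1 := by have := Nat.one_lt_pow hi.ne' hp.out.one_lt; omega
    exact absurd (Nat.le_of_dvd h4 h2) (by omega)
  -- the stabiliser of a vector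
  let H₀ : Subgroup H :=
    { carrier := {h | ρ h v₀ = v₀}
      one_mem' := by show ρ 1 v₀ = v₀; rw [map_one]; rfl
      mul_mem' := fun {g h} hg hh => by
        show ρ (g * h) v₀ = v₀
        rw [map_mul, Module.End.mul_apply, show ρ h v₀ = v₀ from hh]; exact hg
      inv_mem' := fun {g} hg => by
        show ρ g⁻¹ v₀ = v₀
        conv_lhs => rw [← show ρ g v₀ = v₀ from hg]
        rw [← Module.End.mul_apply, ← map_mul, inv_mul_cancel, map_one]; rfl }
  have hsplit : ∀ h : H, ∃ b ∈ A, b⁻¹ * h ∈ H₀ := fun h => by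
    obtain ⟨b, hb, e⟩ := horb h v₀
    refine ⟨b, hb, ?_⟩
    show ρ (b⁻¹ * h) v₀ = v₀
    rw [map_mul, Module.End.mul_apply, e, ← Module.End.mul_apply, ← map_mul, inv_mul_cancel, map_one]
    rfl
  have hcompl : Subgroup.IsComplement' A H₀ := by
    refine Subgroup.isComplement_iff_existsUnique_inv_mul_mem.2 fun h => ?_
    obtain ⟨b, hb, hb'⟩ := hsplit h
    refine ⟨⟨b, hb⟩, hb', fun c hc => Subtype.ext ?_⟩
    have h1 : b⁻¹ * (c : H) ∈ H₀ := by
      have := H₀.mul_mem hb' (H₀.inv_mem hc)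
      rwa [show b⁻¹ * h * ((c : H)⁻¹ * h)⁻¹ = b⁻¹ * c by group] at this
    exact (inv_mul_eq_one.1 (hfree _ (A.mul_mem (A.inv_mem hb) c.2) v₀ hv₀ h1)).symm
  let conj : H → Module.End (ZMod p) M →ₐ[ZMod p] Module.End (ZMod p) M := fun h =>
    { toFun := fun x => ρ h * x * ρ h⁻¹
      map_one' := by rw [mul_one, ← map_mul, mul_inv_cancel, map_one]
      map_mul' := fun x y => by
        rw [mul_assoc (ρ h * x), ← mul_assoc (ρ h⁻¹), ← mul_assoc (ρ h⁻¹), ← map_mul, inv_mul_cancel,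
          map_one, one_mul]
        simp only [mul_assoc]
      map_zero' := by rw [mul_zero, zero_mul]
      map_add' := fun x y => by rw [mul_add, add_mul]
      commutes' := fun r => by
        rw [← Algebra.commutes, mul_assoc, ← map_mul, mul_inv_cancel, map_one, mul_one] }
  have hconjK : ∀ h : H, ∀ x ∈ K, conj h x ∈ K := by
    intro h x hx
    have : K.map (conj h) ≤ K := by
      rw [AlgHom.map_adjoin, Algebra.adjoin_le_iff]
      rintro _ ⟨_, ⟨b, hb, rfl⟩, rfl⟩
      show ρ h * ρ b * ρ h⁻¹ ∈ K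
      rw [← map_mul, ← map_mul]
      exact hKmem _ (Subgroup.Normal.conj_mem inferInstance b hb h)
    exact this ⟨x, hx, rfl⟩
  let σ : H → K →ₐ[ZMod p] K := fun h => ((conj h).comp K.val).codRestrict K fun x => hconjK h x x.2
  have hσmul : ∀ g h, σ (g * h) = (σ g).comp (σ h) := fun g h => AlgHom.ext fun x => Subtype.ext (by
    show ρ (g * h) * x * ρ (g * h)⁻¹ = ρ g * (ρ h * x * ρ h⁻¹) * ρ g⁻¹
    simp only [map_mul, mul_inv_rev, mul_assoc])
  have hσone : σ 1 = AlgHom.id (ZMod p) K := AlgHom.ext fun x => Subtype.ext (by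
    show ρ 1 * x * ρ (1 : H)⁻¹ = x
    rw [inv_one, map_one, one_mul, mul_one])
  let τ : H₀ →* (K ≃ₐ[ZMod p] K) := MonoidHom.mk' (fun h => AlgEquiv.ofAlgHom (σ h) (σ (h : H)⁻¹)
      (by rw [← hσmul, mul_inv_cancel, hσone]) (by rw [← hσmul, inv_mul_cancel, hσone]))
    fun g h => AlgEquiv.ext fun x => AlgHom.congr_fun (hσmul g h) x
  have hτ : Function.Injective τ := by
    rw [injective_iff_map_eq_one]
    intro h hh
    have hcent : (h : H) ∈ Subgroup.centralizer (A : Set H) := Subgroup.mem_centralizer_iff.2 fun b hb => by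
      have h1 : ρ h * ρ b * ρ (h : H)⁻¹ = ρ b :=
        congrArg Subtype.val (AlgEquiv.congr_fun hh ⟨ρ b, hKmem b hb⟩)
      rw [← map_mul, ← map_mul] at h1
      have h2 : (h : H) * b * (h : H)⁻¹ * b⁻¹ = 1 := hfaith _ (by
        rw [map_mul, h1, ← map_mul, mul_inv_cancel, map_one])
      rw [mul_inv_eq_one, mul_inv_eq_iff_eq_mul] at h2
      exact h2.symm
    exact Subtype.ext (hfree _ (hC hcent) v₀ hv₀ h.2)
  haveI : IsCyclic H₀ := isCyclic_of_injective τ hτ
  refine ⟨?_, ?_⟩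
  · obtain ⟨g, hg⟩ := IsCyclic.exists_generator (α := H₀)
    refine ⟨g, eq_top_iff.2 fun h _ => ?_⟩
    obtain ⟨b, hb, hb'⟩ := hsplit h
    obtain ⟨j, hj⟩ := hg ⟨_, hb'⟩
    have : h = b * (g : H) ^ j := by
      rw [← Subgroup.coe_zpow, show g ^ j = ⟨_, hb'⟩ from hj]; group
    rw [this]
    exact Subgroup.mul_mem _ (Subgroup.mem_sup_left hb)
      (Subgroup.mem_sup_right (Subgroup.zpow_mem_zpowers _ j))
  · rw [← Subgroup.IsComplement'.card_mul_card hcompl, hqA]
    refine Nat.mul_dvd_mul_left q ?_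
    haveI : Module.Finite (ZMod p) K := Module.Finite.of_finite
    rw [← hfin, ← IsGalois.card_aut_eq_finrank (ZMod p) K]
    exact Subgroup.card_dvd_of_injective τ hτ

theorem semilinear' {H M : Type*} [Group H] [Finite H] [AddCommGroup M] [Finite M] (p d q : ℕ)
    [hp : Fact p.Prime] [hq : Fact q.Prime] [Module (ZMod p) M] (hcard : Nat.card M = p ^ d) (hd : 0 < d)
    (ρ : H →* AddMonoid.End M) (A : Subgroup H) [A.Normal] (hA : A ≠ ⊥)
    (hAab : ∀ a ∈ A, ∀ b ∈ A, a * b = b * a) (hAexp : ∀ a ∈ A, a ^ q = 1)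
    (hC : Subgroup.centralizer (A : Set H) ≤ A)
    (hfaith : ∀ h : H, (∀ v, ρ h v = v) → h = 1)
    (hfree : ∀ a ∈ A, ∀ v : M, v ≠ 0 → ρ a v = v → a = 1)
    (horb : ∀ (h : H) (v : M), ∃ a ∈ A, ρ h v = ρ a v)
    (hirr : ∀ W : AddSubgroup M, (∀ h : H, ∀ v ∈ W, ρ h v ∈ W) → W = ⊥ ∨ W = ⊤) :
    Nat.card A = q ∧ (∃ h : H, A ⊔ Subgroup.zpowers h = ⊤) ∧ Nat.card H ∣ q * d ∧
      q ∣ p ^ d - 1 ∧ ∀ i : ℕ, 0 < i → i < d → ¬ q ∣ p ^ i - 1 := by
  refine semilinear p d q hcard hd
    { toFun := fun h => AddMonoidHom.toZModLinearMap p (ρ h)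
      map_one' := by ext x; show ρ 1 x = x; rw [map_one]; rfl
      map_mul' := fun g h => by ext x; show ρ (g * h) x = ρ g (ρ h x); rw [map_mul]; rfl }
    A hA hAab hAexp hC (fun h hh => hfaith h fun v => LinearMap.congr_fun hh v) hfree horb fun W hW => ?_
  rcases hirr W.toAddSubgroup hW with h | h
  · left
    ext x
    rw [← Submodule.mem_toAddSubgroup, h, AddSubgroup.mem_bot, Submodule.mem_bot]
  · right
    ext x
    rw [← Submodule.mem_toAddSubgroup, h]
    exact iff_of_true (AddSubgroup.mem_top x) Submodule.mem_top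

end CfsgLib.Extremely
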